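import Mathlib

/-!
# Arithmetic of the rank 3 parameters of the polar spaces (helper397)
-/

set_option autoImplicit false

namespace Cfsg.Agent.H397.Rk

theorem final_s {Q U S : ℤ} (hQ : 2 ≤ Q) (hU : Q ^ 2 ≤ U) (hS : 2 ≤ S) (hS3 : Q = 2 → 3 ≤ S)
    (h : U ^ 2 * S * (Q - 1) < Q * U ^ 2 + (Q - 1) * U - 1) : False := by
  have hU4 : 4 ≤ U := by nlinarith
  have hUU : 0 ≤ U ^ 2 := sq_nonneg _
  rcases eq_or_lt_of_le hQ with h2 | h3
  · subst h2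
    have hS3 := hS3 rfl
    have h1 : U ^ 2 * 3 ≤ U ^ 2 * S := mul_le_mul_of_nonneg_left hS3 hUU
    nlinarith
  · have h1 : U ^ 2 * (2 * (Q - 1)) ≤ U ^ 2 * (S * (Q - 1)) := by
      apply mul_le_mul_of_nonneg_left _ hUU
      apply mul_le_mul_of_nonneg_right hS
      omega
    have h4 : U * ((Q - 2) * U) < U * (Q - 1) := by
      have e1 : U * ((Q - 2) * U) = U ^ 2 * (2 * (Q - 1)) - Q * U ^ 2 := by ring
      have e2 : U ^ 2 * S * (Q - 1) = U ^ 2 * (S * (Q - 1)) := by ring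
      rw [e2] at h
      rw [e1]
      linarith
    have h5 : (Q - 2) * U < Q - 1 := lt_of_mul_lt_mul_left h4 (by omega)
    have h6 : 1 * U ≤ (Q - 2) * U := mul_le_mul_of_nonneg_right (by omega) (by omega)
    nlinarith

/-- the parameters for `Ω_{2m}^ε(q)`, `u = q ^ (m - 2)` -/
theorem arith_pm {q u n k : ℕ} {ε : ℤ} (hε : ε = 1 ∨ ε = -1) (hq : 2 ≤ q) (hu : q ^ 2 ≤ u) (hqu : q ∣ u)
    (hn : (n : ℤ) * (q - 1) = (q ^ 2 * u - ε) * (q * u + ε)) (hk : n = 1 + k + q ^ 2 * u ^ 2) :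
    ∃ k' : ℕ, k = q * k' ∧ 0 < k' ∧ (k' : ℤ) * (q - 1) = (q * u - ε) * (u + ε) ∧
      ∀ a b : ℕ, k * k = k + k * a + q ^ 2 * u ^ 2 * b → b ≠ 0 → b ≠ k →
        a = k - 1 - q * u ^ 2 ∧ b = k' := by
  have hεε : ε * ε = 1 := by rcases hε with rfl | rfl <;> norm_num
  have hkZ : (n : ℤ) = 1 + k + q ^ 2 * u ^ 2 := by exact_mod_cast hk
  have hk1 : (k : ℤ) * (q - 1) = q * ((q * u - ε) * (u + ε)) := by
    linear_combination hn - ((q : ℤ) - 1) * hkZ + (q - 1) * hεε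
  have hqk : q ∣ k := by
    have h1 : (q : ℤ) ∣ (k : ℤ) * (q - 1) := ⟨_, hk1⟩
    have h2 : IsCoprime (q : ℤ) ((q : ℤ) - 1) := ⟨1, -1, by ring⟩
    have h3 := h2.dvd_of_dvd_mul_right h1
    exact_mod_cast h3
  obtain ⟨k', rfl⟩ := hqk
  have hq0 : (q : ℤ) ≠ 0 := by
    have : q ≠ 0 := by omega
    exact_mod_cast this
  have hk2 : (k' : ℤ) * (q - 1) = (q * u - ε) * (u + ε) := by
    apply mul_left_cancel₀ hq0
    rw [← hk1]
    push_cast
    ring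
  have hq2 : (2 : ℤ) ≤ q := by exact_mod_cast hq
  have hu2 : (q : ℤ) ^ 2 ≤ u := by exact_mod_cast hu
  have hu4 : (4 : ℤ) ≤ u := by nlinarith
  have hpos : 0 < k' := by
    rcases Nat.eq_zero_or_pos k' with rfl | h
    · exfalso
      rw [Nat.cast_zero, zero_mul] at hk2
      rcases hε with rfl | rfl
      · have h1 : (0 : ℤ) < (q * u - 1) * (u + 1) := by
          apply mul_pos <;> nlinarith
        omega
      · have h1 : (0 : ℤ) < (q * u - -1) * (u + -1) := by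
          apply mul_pos <;> nlinarith
        omega
    · exact h
  refine ⟨k', rfl, hpos, hk2, fun a b hab hb0 hbk => ?_⟩
  -- `k - 1 - a`
  have hkpos : 0 < q * k' := by positivity
  have hlt : a + 1 < q * k' := by
    have h1 : 0 < q ^ 2 * u ^ 2 * b := by
      have : 0 < u := by
        have : 0 < q ^ 2 := by positivity
        omega
      positivity
    have h2 : (q * k') * (a + 1) < (q * k') * (q * k') := by
      calc (q * k') * (a + 1) = q * k' + q * k' * a := by ring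
        _ < q * k' * (q * k') := by omega
    exact Nat.lt_of_mul_lt_mul_left h2
  obtain ⟨t, ht⟩ : ∃ t, q * k' = a + 1 + t := ⟨q * k' - (a + 1), by omega⟩
  have ht0 : 0 < t := by omega
  have h1 : q * k' * t = q ^ 2 * u ^ 2 * b := by
    have h2 : (q * k') * (q * k') = (q * k') * (a + 1) + (q * k') * t := by
      rw [← mul_add]; exact congrArg (fun x => q * k' * x) ht
    have h3 : (q * k') * (a + 1) = q * k' + q * k' * a := by ring
    omega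
  have h2 : k' * t = q * u ^ 2 * b := by
    apply Nat.eq_of_mul_eq_mul_left (show 0 < q by omega)
    calc q * (k' * t) = q * k' * t := by ring
      _ = q ^ 2 * u ^ 2 * b := h1
      _ = q * (q * u ^ 2 * b) := by ring
  -- coprimality
  have hcu : Nat.Coprime k' u := by
    have h3 : IsCoprime (k' : ℤ) (u : ℤ) := by
      refine ⟨-((q : ℤ) - 1), q * u + ε * q - ε, ?_⟩
      linear_combination -hk2 + hεε
    exact Nat.isCoprime_iff_coprime.1 h3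
  have hcq : Nat.Coprime k' q := by
    exact Nat.Coprime.coprime_dvd_right hqu hcu
  have hdvd : q * u ^ 2 ∣ t := by
    have h3 : Nat.Coprime (q * u ^ 2) k' := by
      refine Nat.Coprime.mul_left hcq.symm ?_
      exact Nat.Coprime.pow_left 2 hcu.symm
    exact h3.dvd_of_dvd_mul_left ⟨b, h2⟩
  obtain ⟨s, rfl⟩ := hdvd
  have hu0 : 0 < u := by
    have : 0 < q ^ 2 := by positivity
    omega
  have hbs : b = k' * s := by
    have h3 : 0 < q * u ^ 2 := by positivity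
    apply Nat.eq_of_mul_eq_mul_left h3
    rw [← h2]; ring
  have hs0 : s ≠ 0 := by
    rintro rfl
    rw [mul_zero] at ht0
    omega
  have hsq : s ≠ q := by
    rintro rfl
    apply hbk
    rw [hbs]; ring
  have hs1 : s = 1 := by
    by_contra hs1
    -- `q u² s < q k'`
    have h3 : q * u ^ 2 * s < q * k' := by omega
    have h4 : u ^ 2 * s < k' := by
      have h5 : q * (u ^ 2 * s) < q * k' := by rw [← mul_assoc]; exact h3
      exact Nat.lt_of_mul_lt_mul_left h5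
    have h5 : ((u : ℤ) ^ 2 * s) < k' := by exact_mod_cast h4
    have h6 : ((u : ℤ) ^ 2 * s) * (q - 1) < (q * u - ε) * (u + ε) := by
      rw [← hk2]
      exact mul_lt_mul_of_pos_right h5 (by omega)
    have h7 : (q * u - ε) * (u + ε) = q * (u : ℤ) ^ 2 + ε * (q - 1) * u - 1 := by
      linear_combination -hεε
    rw [h7] at h6
    have h8 : ε * ((q : ℤ) - 1) * u ≤ (q - 1) * u := by
      have h9 : (0 : ℤ) ≤ ((q : ℤ) - 1) * u := mul_nonneg (by omega) (by omega)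
      rcases hε with rfl | rfl
      · linarith
      · linarith
    have hs2 : (2 : ℤ) ≤ s := by
      have : 2 ≤ s := by omega
      exact_mod_cast this
    refine final_s hq2 hu2 hs2 (fun h9 => ?_) (lt_of_lt_of_le h6 (by linarith))
    have h10 : q = 2 := by exact_mod_cast h9
    have : 3 ≤ s := by omega
    exact_mod_cast this
  subst hs1
  refine ⟨by omega, by rw [hbs, mul_one]⟩

/-- the degrees for `Ω_{2m}^ε(q)` -/
theorem deg_pm {q u n k k' : ℕ} {ε : ℤ} (hε : ε = 1 ∨ ε = -1) (hq : 2 ≤ q)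
    (hn : (n : ℤ) * (q - 1) = (q ^ 2 * u - ε) * (q * u + ε)) (hk : n = 1 + k + q ^ 2 * u ^ 2)
    (hkk : k = q * k') (hk' : (k' : ℤ) * (q - 1) = (q * u - ε) * (u + ε))
    (hlt : q * u ^ 2 + 1 ≤ k)
    {A B : ℕ} (hB : (B : ℤ) * (q ^ 2 - 1) = q ^ 2 * (q ^ 2 * u ^ 2 - 1)) (hA : A + B = k + q ^ 2 * u ^ 2) :
    (((u * (q + 1)) ^ 2 : ℕ) : ℤ) = (((k - 1 - q * u ^ 2 : ℕ) : ℤ) - k') ^ 2 + 4 * ((k : ℤ) - k') ∧
    A * B * ((u * (q + 1)) ^ 2) = (1 + k + q ^ 2 * u ^ 2) * k * (q ^ 2 * u ^ 2) ∧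
    (A : ℤ) * (q ^ 2 - 1) = q * ((q ^ 2 * u - ε) * (u + ε)) := by
  have hεε : ε * ε = 1 := by rcases hε with rfl | rfl <;> norm_num
  have hkZ : (n : ℤ) = 1 + k + q ^ 2 * u ^ 2 := by exact_mod_cast hk
  have hkkZ : (k : ℤ) = q * k' := by exact_mod_cast hkk
  have hAZ : (A : ℤ) + B = k + q ^ 2 * u ^ 2 := by exact_mod_cast hA
  have hsub : ((k - 1 - q * u ^ 2 : ℕ) : ℤ) = k - 1 - q * u ^ 2 := by
    have : k - 1 - q * u ^ 2 = k - (1 + q * u ^ 2) := by omega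
    rw [this, Nat.cast_sub (by omega)]
    push_cast
    ring
  have h7 : (q * u - ε) * (u + ε) = q * (u : ℤ) ^ 2 + ε * (q - 1) * u - 1 := by
    linear_combination -hεε
  have hA' : (A : ℤ) * (q ^ 2 - 1) = q * ((q ^ 2 * u - ε) * (u + ε)) := by
    linear_combination ((q : ℤ) ^ 2 - 1) * hAZ - hB + ((q : ℤ) ^ 2 - 1) * hkkZ + (q : ℤ) * (q + 1) * hk'
      - (q : ℤ) ^ 2 * hεε
  refine ⟨?_, ?_, hA'⟩
  · rw [hsub, hkkZ]
    have e1 : (q : ℤ) * k' - 1 - q * u ^ 2 - k' = ε * (q - 1) * u - 2 := by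
      linear_combination hk' + h7
    have e2 : (4 : ℤ) * (q * k' - k') = 4 * (q * (u : ℤ) ^ 2 + ε * (q - 1) * u - 1) := by
      linear_combination 4 * hk' + 4 * h7
    rw [e1, e2]
    push_cast
    linear_combination -((q : ℤ) - 1) ^ 2 * u ^ 2 * hεε
  · have hne : ((q : ℤ) ^ 2 - 1) * (q ^ 2 - 1) ≠ 0 := by
      have hq2 : (2 : ℤ) ≤ q := by exact_mod_cast hq
      have : (0 : ℤ) < (q : ℤ) ^ 2 - 1 := by nlinarith
      positivity
    have goal : ((A : ℤ) * B * ((u * (q + 1)) ^ 2)) = (1 + k + q ^ 2 * u ^ 2) * k * (q ^ 2 * u ^ 2) := by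
      apply mul_left_cancel₀ hne
      have e1 : ((q : ℤ) ^ 2 - 1) * (q ^ 2 - 1) * ((A : ℤ) * B * ((u * (q + 1)) ^ 2))
        = (A * (q ^ 2 - 1)) * (B * (q ^ 2 - 1)) * ((u * (q + 1)) ^ 2) := by ring
      have e2 : ((q : ℤ) ^ 2 - 1) * (q ^ 2 - 1) * ((1 + k + q ^ 2 * u ^ 2) * k * (q ^ 2 * u ^ 2))
        = (n * (q - 1)) * (q * (k' * (q - 1))) * (q ^ 2 * u ^ 2) * (q + 1) ^ 2 := by
        rw [← hkZ, hkkZ]; ring
      rw [e1, e2, hA', hB, hn, hk']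
      linear_combination ((q : ℤ) ^ 3 * u ^ 2 * (q + 1) ^ 2 * (q ^ 2 * u - ε) * (u + ε)) * hεε
    exact_mod_cast goal

/-- the parameters for `Ω_{2m+1}(q)`, `u = q ^ (m - 1)` -/
theorem arith_odd {q u n k : ℕ} (hq : 3 ≤ q) (hu : q ≤ u)
    (hn : (n : ℤ) * (q - 1) = q ^ 2 * u ^ 2 - 1) (hk : n = 1 + k + q * u ^ 2) :
    ∃ k' : ℕ, k = q * k' ∧ 0 < k' ∧ (k' : ℤ) * (q - 1) = u ^ 2 - 1 ∧
      ∀ a b : ℕ, k * k = k + k * a + q * u ^ 2 * b → b ≠ 0 → b ≠ k →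
        a = k - 1 - u ^ 2 ∧ b = k' := by
  have hkZ : (n : ℤ) = 1 + k + q * u ^ 2 := by exact_mod_cast hk
  have hk1 : (k : ℤ) * (q - 1) = q * (u ^ 2 - 1) := by
    linear_combination hn - ((q : ℤ) - 1) * hkZ
  have hqk : q ∣ k := by
    have h1 : (q : ℤ) ∣ (k : ℤ) * (q - 1) := ⟨_, hk1⟩
    have h2 : IsCoprime (q : ℤ) ((q : ℤ) - 1) := ⟨1, -1, by ring⟩
    have h3 := h2.dvd_of_dvd_mul_right h1
    exact_mod_cast h3
  obtain ⟨k', rfl⟩ := hqk
  have hq0 : (q : ℤ) ≠ 0 := by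
    have : q ≠ 0 := by omega
    exact_mod_cast this
  have hk2 : (k' : ℤ) * (q - 1) = u ^ 2 - 1 := by
    apply mul_left_cancel₀ hq0
    rw [← hk1]
    push_cast
    ring
  have hq2 : (3 : ℤ) ≤ q := by exact_mod_cast hq
  have hu2 : (q : ℤ) ≤ u := by exact_mod_cast hu
  have hpos : 0 < k' := by
    rcases Nat.eq_zero_or_pos k' with rfl | h
    · exfalso
      rw [Nat.cast_zero, zero_mul] at hk2
      nlinarith
    · exact h
  refine ⟨k', rfl, hpos, hk2, fun a b hab hb0 _ => ?_⟩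
  have hkpos : 0 < q * k' := by positivity
  have hlt : a + 1 < q * k' := by
    have h1 : 0 < q * u ^ 2 * b := by
      have : 0 < u := by omega
      positivity
    have h2 : (q * k') * (a + 1) < (q * k') * (q * k') := by
      calc (q * k') * (a + 1) = q * k' + q * k' * a := by ring
        _ < q * k' * (q * k') := by omega
    exact Nat.lt_of_mul_lt_mul_left h2
  obtain ⟨t, ht⟩ : ∃ t, q * k' = a + 1 + t := ⟨q * k' - (a + 1), by omega⟩
  have ht0 : 0 < t := by omega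
  have h1 : q * k' * t = q * u ^ 2 * b := by
    have h2 : (q * k') * (q * k') = (q * k') * (a + 1) + (q * k') * t := by
      rw [← mul_add]; exact congrArg (fun x => q * k' * x) ht
    have h3 : (q * k') * (a + 1) = q * k' + q * k' * a := by ring
    omega
  have h2 : k' * t = u ^ 2 * b := by
    apply Nat.eq_of_mul_eq_mul_left (show 0 < q by omega)
    calc q * (k' * t) = q * k' * t := by ring
      _ = q * u ^ 2 * b := h1
      _ = q * (u ^ 2 * b) := by ring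
  have hcu : Nat.Coprime k' u := by
    have h3 : IsCoprime (k' : ℤ) (u : ℤ) := by
      refine ⟨-((q : ℤ) - 1), u, ?_⟩
      linear_combination -hk2
    exact Nat.isCoprime_iff_coprime.1 h3
  have hdvd : u ^ 2 ∣ t := by
    have h3 : Nat.Coprime (u ^ 2) k' := Nat.Coprime.pow_left 2 hcu.symm
    exact h3.dvd_of_dvd_mul_left ⟨b, h2⟩
  obtain ⟨s, rfl⟩ := hdvd
  have hu0 : 0 < u := by omega
  have hbs : b = k' * s := by
    have h3 : 0 < u ^ 2 := by positivity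
    apply Nat.eq_of_mul_eq_mul_left h3
    rw [← h2]; ring
  have hs0 : s ≠ 0 := by
    rintro rfl
    rw [mul_zero] at ht0
    omega
  have hs1 : s = 1 := by
    by_contra hs1
    have h3 : u ^ 2 * s < q * k' := by omega
    have h5 : ((u : ℤ) ^ 2 * s) < q * k' := by exact_mod_cast h3
    have h6 : ((u : ℤ) ^ 2 * s) * (q - 1) < q * (u ^ 2 - 1) := by
      rw [← hk2]
      calc ((u : ℤ) ^ 2 * s) * (q - 1) < (q * k') * (q - 1) := mul_lt_mul_of_pos_right h5 (by omega)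
        _ = q * (k' * (q - 1)) := by ring
    have hs2 : (2 : ℤ) ≤ s := by
      have : 2 ≤ s := by omega
      exact_mod_cast this
    have h7 : (u : ℤ) ^ 2 * (2 * (q - 1)) ≤ u ^ 2 * (s * (q - 1)) := by
      apply mul_le_mul_of_nonneg_left _ (sq_nonneg _)
      exact mul_le_mul_of_nonneg_right hs2 (by omega)
    have h8 : (u : ℤ) ^ 2 * q ≤ u ^ 2 * (2 * (q - 1)) := by
      apply mul_le_mul_of_nonneg_left _ (sq_nonneg _)
      omega
    have e2 : (u : ℤ) ^ 2 * s * (q - 1) = u ^ 2 * (s * (q - 1)) := by ring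
    nlinarith
  subst hs1
  refine ⟨by omega, by rw [hbs, mul_one]⟩

/-- the degrees for `Ω_{2m+1}(q)` -/
theorem deg_odd {q u n k k' : ℕ} (hq : 3 ≤ q)
    (hn : (n : ℤ) * (q - 1) = q ^ 2 * u ^ 2 - 1) (hk : n = 1 + k + q * u ^ 2)
    (hkk : k = q * k') (hk' : (k' : ℤ) * (q - 1) = u ^ 2 - 1)
    (hlt : u ^ 2 + 1 ≤ k)
    {A B : ℕ} (hB : (B : ℤ) * (2 * (q - 1)) = q * ((q * u - 1) * (u + 1))) (hA : A + B = k + q * u ^ 2) :
    (((2 * u) ^ 2 : ℕ) : ℤ) = (((k - 1 - u ^ 2 : ℕ) : ℤ) - k') ^ 2 + 4 * ((k : ℤ) - k') ∧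
    A * B * ((2 * u) ^ 2) = (1 + k + q * u ^ 2) * k * (q * u ^ 2) ∧
    (A : ℤ) * (2 * (q - 1)) = q * ((q * u + 1) * (u - 1)) := by
  have hkZ : (n : ℤ) = 1 + k + q * u ^ 2 := by exact_mod_cast hk
  have hkkZ : (k : ℤ) = q * k' := by exact_mod_cast hkk
  have hAZ : (A : ℤ) + B = k + q * u ^ 2 := by exact_mod_cast hA
  have hsub : ((k - 1 - u ^ 2 : ℕ) : ℤ) = k - 1 - u ^ 2 := by
    have : k - 1 - u ^ 2 = k - (1 + u ^ 2) := by omega
    rw [this, Nat.cast_sub (by omega)]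
    push_cast
    ring
  have hA' : (A : ℤ) * (2 * (q - 1)) = q * ((q * u + 1) * (u - 1)) := by
    linear_combination (2 * ((q : ℤ) - 1)) * hAZ - hB + (2 * ((q : ℤ) - 1)) * hkkZ + 2 * (q : ℤ) * hk'
  refine ⟨?_, ?_, hA'⟩
  · rw [hsub, hkkZ]
    have e1 : (q : ℤ) * k' - 1 - u ^ 2 - k' = - 2 := by
      linear_combination hk'
    have e2 : (4 : ℤ) * (q * k' - k') = 4 * (u ^ 2 - 1) := by
      linear_combination 4 * hk'
    rw [e1, e2]
    push_cast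
    ring
  · have hne : (2 * ((q : ℤ) - 1)) * (2 * (q - 1)) ≠ 0 := by
      have hq2 : (3 : ℤ) ≤ q := by exact_mod_cast hq
      have : (0 : ℤ) < (q : ℤ) - 1 := by omega
      positivity
    have goal : ((A : ℤ) * B * ((2 * u) ^ 2)) = (1 + k + q * u ^ 2) * k * (q * u ^ 2) := by
      apply mul_left_cancel₀ hne
      have e1 : (2 * ((q : ℤ) - 1)) * (2 * (q - 1)) * ((A : ℤ) * B * ((2 * u) ^ 2))
        = (A * (2 * (q - 1))) * (B * (2 * (q - 1))) * ((2 * u) ^ 2) := by ring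
      have e2 : (2 * ((q : ℤ) - 1)) * (2 * (q - 1)) * ((1 + k + q * u ^ 2) * k * (q * u ^ 2))
        = 4 * (n * (q - 1)) * (q * (k' * (q - 1))) * (q * u ^ 2) := by
        rw [← hkZ, hkkZ]; ring
      rw [e1, e2, hA', hB, hn, hk']
      ring
    exact_mod_cast goal

theorem exists_nat_of_mul {x c d : ℤ} (hc : 0 < c) (hd : 0 ≤ d) (h : x * c = d) : ∃ n : ℕ, x = n := by
  have : 0 ≤ x := by
    by_contra hx
    push Not at hx
    have := mul_neg_of_neg_of_pos hx hc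
    omega
  exact ⟨x.toNat, (Int.toNat_of_nonneg this).symm⟩

/-- everything for `Ω_{2m}^ε(q)`, `r = m - 2`, `u = q ^ r` -/
theorem all_pm {q r n : ℕ} {ε : ℤ} (hε : ε = 1 ∨ ε = -1) (hq : 2 ≤ q) (hr : 2 ≤ r) {u : ℕ} (hu : u = q ^ r)
    (hn : (n : ℤ) * (q - 1) = (q ^ 2 * u - ε) * (q * u + ε)) :
    ∃ k a₀ b₀ A B : ℕ, n = 1 + k + q ^ 2 * u ^ 2 ∧ 0 < k ∧
      (∀ a b : ℕ, k * k = k + k * a + q ^ 2 * u ^ 2 * b → b ≠ 0 → b ≠ k → a = a₀ ∧ b = b₀) ∧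
      (((u * (q + 1)) ^ 2 : ℕ) : ℤ) = ((a₀ : ℤ) - b₀) ^ 2 + 4 * ((k : ℤ) - b₀) ∧
      A + B = k + q ^ 2 * u ^ 2 ∧ A * B * ((u * (q + 1)) ^ 2) = (1 + k + q ^ 2 * u ^ 2) * k * (q ^ 2 * u ^ 2) ∧
      (A : ℤ) * (q ^ 2 - 1) = q * ((q ^ 2 * u - ε) * (u + ε)) ∧
      (B : ℤ) * (q ^ 2 - 1) = q ^ 2 * (q ^ 2 * u ^ 2 - 1) := by
  have hqr : q ^ 2 ≤ u := by rw [hu]; exact Nat.pow_le_pow_right (by omega) hr
  have hqu : q ∣ u := by rw [hu]; exact dvd_pow_self q (by omega)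
  have hεε : ε * ε = 1 := by rcases hε with rfl | rfl <;> norm_num
  have hq2' : (2 : ℤ) ≤ q := by exact_mod_cast hq
  have hqr' : (q : ℤ) ^ 2 ≤ u := by exact_mod_cast hqr
  have hu4 : (4 : ℤ) ≤ u := by nlinarith
  have hε1 : -1 ≤ ε := by rcases hε with rfl | rfl <;> norm_num
  have hqu' : (q : ℤ) * (q - 1) ≤ u - 2 := by nlinarith
  -- `n`
  have hlt : 1 + q ^ 2 * u ^ 2 ≤ n := by
    have h3 : ((1 + q ^ 2 * u ^ 2 : ℕ) : ℤ) * (q - 1) ≤ n * (q - 1) := by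
      rw [hn]
      push_cast
      have h7 : ((q : ℤ) ^ 2 * u - ε) * (q * u + ε) = q ^ 3 * (u : ℤ) ^ 2 + ε * (q * (q - 1) * u) - 1 := by
        linear_combination -hεε
      rw [h7]
      have h8 : (0 : ℤ) ≤ q * (q - 1) * u := mul_nonneg (mul_nonneg (by omega) (by omega)) (by omega)
      have h9 : -1 * (q * (q - 1) * (u : ℤ)) ≤ ε * (q * (q - 1) * u) := mul_le_mul_of_nonneg_right hε1 h8
      have h10 : (q * (q - 1)) * (u : ℤ) ≤ u * u := mul_le_mul_of_nonneg_right (by omega) (by omega)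
      have h11 : (q : ℤ) ≤ u * u := by nlinarith
      have h12 : (u : ℤ) * u * 4 ≤ q ^ 2 * u ^ 2 := by nlinarith [mul_nonneg (by omega : (0 : ℤ) ≤ q - 2) (by omega : (0 : ℤ) ≤ q + 2), sq_nonneg (u : ℤ)]
      nlinarith
    have h4 : ((1 + q ^ 2 * u ^ 2 : ℕ) : ℤ) ≤ n := le_of_mul_le_mul_right h3 (by omega)
    exact_mod_cast h4
  obtain ⟨k, hk⟩ : ∃ k, n = 1 + k + q ^ 2 * u ^ 2 := ⟨n - 1 - q ^ 2 * u ^ 2, by omega⟩
  obtain ⟨k', hkk, hk'0, hk', hpar⟩ := arith_pm hε hq hqr hqu hn hk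
  have hkZ : (n : ℤ) = 1 + k + q ^ 2 * u ^ 2 := by exact_mod_cast hk
  have hkkZ : (k : ℤ) = q * k' := by exact_mod_cast hkk
  have h7 : (q * u - ε) * (u + ε) = q * (u : ℤ) ^ 2 + ε * ((q - 1) * u) - 1 := by
    linear_combination -hεε
  have h8 : (0 : ℤ) ≤ (q - 1) * u := mul_nonneg (by omega) (by omega)
  have h9 : -1 * ((q - 1) * (u : ℤ)) ≤ ε * ((q - 1) * u) := mul_le_mul_of_nonneg_right hε1 h8
  have h10 : ((q - 1) + 3) * (u : ℤ) ≤ u * u := mul_le_mul_of_nonneg_right (by nlinarith) (by omega)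
  have hlt2 : q * u ^ 2 + 1 ≤ k := by
    have h3 : ((q * u ^ 2 + 1 : ℕ) : ℤ) * (q - 1) ≤ k * (q - 1) := by
      have e : (k : ℤ) * (q - 1) = q * (q * (u : ℤ) ^ 2 + ε * ((q - 1) * u) - 1) := by
        rw [hkkZ, mul_assoc, hk', h7]
      rw [e]
      push_cast
      have h11 : (q : ℤ) * ((u : ℤ) ^ 2 + ε * ((q - 1) * u) - 2) ≥ 0 := by
        apply mul_nonneg (by omega)
        nlinarith
      nlinarith
    have h4 : ((q * u ^ 2 + 1 : ℕ) : ℤ) ≤ k := le_of_mul_le_mul_right h3 (by omega)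
    exact_mod_cast h4
  -- `B`
  have hc : (0 : ℤ) < (q : ℤ) ^ 2 - 1 := by nlinarith
  obtain ⟨B, hB⟩ : ∃ B : ℕ, (B : ℤ) * (q ^ 2 - 1) = q ^ 2 * (q ^ 2 * u ^ 2 - 1) := by
    have h3 : ((q : ℤ) ^ 2 - 1) ∣ ((q : ℤ) ^ 2) ^ (r + 1) - 1 := sub_one_dvd_pow_sub_one _ _
    obtain ⟨x, hx⟩ := h3
    have h4 : ((q : ℤ) ^ 2 * x) * (q ^ 2 - 1) = q ^ 2 * (q ^ 2 * u ^ 2 - 1) := by
      have e : ((q : ℤ) ^ 2) ^ (r + 1) = q ^ 2 * u ^ 2 := by rw [hu]; push_cast; ring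
      rw [e] at hx
      rw [hx]; ring
    obtain ⟨B, hB⟩ := exists_nat_of_mul hc (by
      apply mul_nonneg (sq_nonneg _)
      have h5 : (1 : ℤ) ≤ q * u := by nlinarith
      nlinarith) h4
    exact ⟨B, by rw [← hB]; exact h4⟩
  obtain ⟨A, hA⟩ : ∃ A : ℕ, (k : ℤ) + q ^ 2 * u ^ 2 - B = A := by
    refine exists_nat_of_mul hc (d := q * ((q ^ 2 * u - ε) * (u + ε))) ?_ ?_
    · apply mul_nonneg (by omega)
      apply mul_nonneg
      · rcases hε with rfl | rfl <;> nlinarith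
      · omega
    · linear_combination - hB + ((q : ℤ) ^ 2 - 1) * hkkZ + (q : ℤ) * (q + 1) * hk'
        - (q : ℤ) ^ 2 * hεε
  have hAB : A + B = k + q ^ 2 * u ^ 2 := by
    have : ((A + B : ℕ) : ℤ) = ((k + q ^ 2 * u ^ 2 : ℕ) : ℤ) := by
      push_cast
      linarith
    exact_mod_cast this
  obtain ⟨h1, h2, h3⟩ := deg_pm hε hq hn hk hkk hk' hlt2 hB hAB
  exact ⟨k, _, k', A, B, hk, by rw [hkk]; positivity, hpar, h1, hAB, h2, h3, hB⟩

/-- everything for `Ω_{2m+1}(q)`, `r = m - 1`, `u = q ^ r` -/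
theorem all_odd {q r n : ℕ} (hq : 3 ≤ q) (hodd : Odd q) (hr : 2 ≤ r) {u : ℕ} (hu : u = q ^ r)
    (hn : (n : ℤ) * (q - 1) = q ^ 2 * u ^ 2 - 1) :
    ∃ k a₀ b₀ A B : ℕ, n = 1 + k + q * u ^ 2 ∧ 0 < k ∧
      (∀ a b : ℕ, k * k = k + k * a + q * u ^ 2 * b → b ≠ 0 → b ≠ k → a = a₀ ∧ b = b₀) ∧
      (((2 * u) ^ 2 : ℕ) : ℤ) = ((a₀ : ℤ) - b₀) ^ 2 + 4 * ((k : ℤ) - b₀) ∧
      A + B = k + q * u ^ 2 ∧ A * B * ((2 * u) ^ 2) = (1 + k + q * u ^ 2) * k * (q * u ^ 2) ∧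
      (A : ℤ) * (2 * (q - 1)) = q * ((q * u + 1) * (u - 1)) ∧
      (B : ℤ) * (2 * (q - 1)) = q * ((q * u - 1) * (u + 1)) := by
  have hqr : q ^ 2 ≤ u := by rw [hu]; exact Nat.pow_le_pow_right (by omega) hr
  have hqu1 : q ≤ u := (Nat.le_self_pow (by omega) q).trans hqr
  have hq3 : (3 : ℤ) ≤ q := by exact_mod_cast hq
  have hu3 : (q : ℤ) ≤ u := by exact_mod_cast hqu1
  have hlt : 1 + q * u ^ 2 ≤ n := by
    have h3 : ((1 + q * u ^ 2 : ℕ) : ℤ) * (q - 1) ≤ n * (q - 1) := by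
      rw [hn]
      push_cast
      nlinarith [mul_nonneg (by omega : (0 : ℤ) ≤ q) (by nlinarith : (0 : ℤ) ≤ (u : ℤ) ^ 2 - 1)]
    have h4 : ((1 + q * u ^ 2 : ℕ) : ℤ) ≤ n := le_of_mul_le_mul_right h3 (by omega)
    exact_mod_cast h4
  obtain ⟨k, hk⟩ : ∃ k, n = 1 + k + q * u ^ 2 := ⟨n - 1 - q * u ^ 2, by omega⟩
  obtain ⟨k', hkk, hk'0, hk', hpar⟩ := arith_odd hq hqu1 hn hk
  have hkZ : (n : ℤ) = 1 + k + q * u ^ 2 := by exact_mod_cast hk
  have hkkZ : (k : ℤ) = q * k' := by exact_mod_cast hkk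
  have hlt2 : u ^ 2 + 1 ≤ k := by
    have h3 : ((u ^ 2 + 1 : ℕ) : ℤ) * (q - 1) ≤ k * (q - 1) := by
      have e : (k : ℤ) * (q - 1) = q * ((u : ℤ) ^ 2 - 1) := by rw [hkkZ, mul_assoc, hk']
      rw [e]
      push_cast
      nlinarith
    have h4 : ((u ^ 2 + 1 : ℕ) : ℤ) ≤ k := le_of_mul_le_mul_right h3 (by omega)
    exact_mod_cast h4
  have hc : (0 : ℤ) < 2 * ((q : ℤ) - 1) := by omega
  obtain ⟨B, hB⟩ : ∃ B : ℕ, (B : ℤ) * (2 * (q - 1)) = q * ((q * u - 1) * (u + 1)) := by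
    have h3 : ((q : ℤ) - 1) ∣ q ^ (r + 1) - 1 := sub_one_dvd_pow_sub_one _ _
    obtain ⟨x, hx⟩ := h3
    have h5 : Odd (u : ℤ) := by
      rw [hu]
      exact_mod_cast hodd.pow
    obtain ⟨y, hy⟩ := h5
    have h4 : ((q : ℤ) * x * (y + 1)) * (2 * (q - 1)) = q * ((q * u - 1) * (u + 1)) := by
      have e : (q : ℤ) ^ (r + 1) = q * u := by rw [hu]; push_cast; ring
      rw [e] at hx
      rw [hx, hy]; ring
    obtain ⟨B, hB⟩ := exists_nat_of_mul hc (by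
      apply mul_nonneg (by omega)
      apply mul_nonneg (by nlinarith) (by omega)) h4
    exact ⟨B, by rw [← hB]; exact h4⟩
  obtain ⟨A, hA⟩ : ∃ A : ℕ, (k : ℤ) + q * u ^ 2 - B = A := by
    refine exists_nat_of_mul hc (d := q * ((q * u + 1) * (u - 1))) ?_ ?_
    · apply mul_nonneg (by omega)
      apply mul_nonneg (by nlinarith) (by omega)
    · linear_combination - hB + (2 * ((q : ℤ) - 1)) * hkkZ + 2 * (q : ℤ) * hk'
  have hAB : A + B = k + q * u ^ 2 := by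
    have : ((A + B : ℕ) : ℤ) = ((k + q * u ^ 2 : ℕ) : ℤ) := by
      push_cast
      linarith
    exact_mod_cast this
  obtain ⟨h1, h2, h3⟩ := deg_odd hq hn hk hkk hk' hlt2 hB hAB
  exact ⟨k, _, k', A, B, hk, by rw [hkk]; positivity, hpar, h1, hAB, h2, h3, hB⟩

end Cfsg.Agent.H397.Rk
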