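import Cfsg.Agent.H397.Rk.Polar
import Cfsg.Agent.H397.Rk.Arith
import Cfsg.Agent.LieClassical.OrthForms
import Cfsg.Agent.S0289
import Cfsg.Agent.S0290
import Cfsg.Agent.S0291
import Cfsg.Agent.H504.Zeros

/-!
# The irreducible constituents of the rank 3 character of `POmega` (helper397)
-/

set_option autoImplicit false
set_option linter.style.haveILetI false

namespace Cfsg.Agent.H397.Rk

open QuadraticMap Cfsg Cfsg.Agent.LieClassical.OrthCore Cfsg.Agent.LieClassical.OrthTrans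
  Cfsg.Agent.LieClassical.OrthSimple Cfsg.Agent.LieClassical.OrthFinite
  Cfsg.Agent.ClassicalGeometry.OrthAut1 Cfsg.Agent.ClassicalGeometry.OrthAut3
  Cfsg.Agent.ClassicalGeometry.OrthAut2b Cfsg.Agent.LieClassical Cfsg.Agent.Characters.Core

/-- there is an irreducible character of degree `d` -/
def HasDeg (G : Type*) [Group G] (d : ℕ) : Prop := ∃ χ : IrrCharacter G, charDegree (χ : G → ℂ) = d

theorem HasDeg.of_equiv {G H : Type*} [Group G] [Group H] (e : G ≃* H) {d : ℕ} (h : HasDeg H d) : HasDeg G d := by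
  obtain ⟨χ, hχ⟩ := h
  exact ⟨⟨(χ : H → ℂ) ∘ e, isIrr_comp (e : G →* H) e.surjective χ.2⟩,
    (Cfsg.Agent.H504.Zeros.charDegree_comp e _).trans hχ⟩

variable {F : Type} [Field F] [Fintype F]

theorem chars_of {ι : Type} [Fintype ι] [DecidableEq ι] (Q : QuadraticForm F (ι → F)) (hG : Good Q)
    {k l a₀ b₀ A B D₀ N : ℕ} (hN : Fintype.card ι = N) (hk0 : 0 < k) (hl : l = Fintype.card F ^ (N - 2))
    (hn : Nat.card {v : ι → F // Q v = 0} = (1 + k + l) * (Fintype.card F - 1) + 1)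
    (hpar : ∀ a b : ℕ, k * k = k + k * a + l * b → b ≠ 0 → b ≠ k → a = a₀ ∧ b = b₀)
    (hD : (D₀ : ℤ) = ((a₀ : ℤ) - b₀) ^ 2 + 4 * ((k : ℤ) - b₀))
    (hsum : A + B = k + l) (hprod : A * B * D₀ = (1 + k + l) * k * l) :
    HasDeg (Cfsg.POmega F ⇑Q) A ∧ HasDeg (Cfsg.POmega F ⇑Q) B := by
  have hfin := finite_P (F := F) (V := ι → F) (Q := Q)
  have hfr : Module.finrank F (ι → F) = N := by rw [Module.finrank_fintype_fun_eq_card, hN]
  have hq : 2 ≤ Fintype.card F := Fintype.one_lt_card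
  have h1 := card_Pts_mul (F := F) (V := ι → F) (Q := Q)
  rw [hn, Nat.card_eq_fintype_card (α := F)] at h1
  have h2 : Nat.card (Pts Q) = 1 + k + l := by
    have h3 : Nat.card (Pts Q) * (Fintype.card F - 1) = (1 + k + l) * (Fintype.card F - 1) := by omega
    exact Nat.eq_of_mul_eq_mul_right (by omega) h3
  letI := ptsAct hG
  have hR := rank3 hG (k := k) hk0 (by rw [h2, hl, Nat.card_eq_fintype_card (α := F), hfr])
  rw [Nat.card_eq_fintype_card (α := F), hfr, ← hl] at hR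
  have h3 := degrees hR hpar (exists_conn hG) (exists_nonprim hG) hD hsum hprod
  have e : Cfsg.POmega F ⇑Q ≃* P Q :=
    quotientCenterCongr ((omegaEquiv Q).trans (MulEquiv.subgroupCongr hG.commutator_eq_E))
  exact ⟨HasDeg.of_equiv e h3.1, HasDeg.of_equiv e h3.2⟩

/-- helper: from the arithmetic to the characters, types `±` -/
theorem chars_pm {ι : Type} [Fintype ι] [DecidableEq ι] (Q : QuadraticForm F (ι → F)) (hG : Good Q)
    {q m : ℕ} (hq : Fintype.card F = q) (hm : 4 ≤ m) (hN : Fintype.card ι = 2 * m) {ε : ℤ} (hε : ε = 1 ∨ ε = -1)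
    (hs : (Nat.card {v : ι → F // Q v = 0} : ℤ) = (q ^ m - ε) * (q ^ (m - 1) + ε) + 1) :
    ∃ A B : ℕ, (A : ℤ) * (q ^ 2 - 1) = q * ((q ^ m - ε) * (q ^ (m - 2) + ε)) ∧
      (B : ℤ) * (q ^ 2 - 1) = q ^ 2 * (q ^ (2 * (m - 1)) - 1) ∧
      HasDeg (Cfsg.POmega F ⇑Q) A ∧ HasDeg (Cfsg.POmega F ⇑Q) B := by
  subst hq
  set q := Fintype.card F with hqdef
  have hq2 : 2 ≤ q := Fintype.one_lt_card
  obtain ⟨r, rfl⟩ : ∃ r, m = r + 2 := ⟨m - 2, by omega⟩
  rw [show r + 2 - 2 = r by omega]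
  rw [show r + 2 - 1 = r + 1 by omega] at hs ⊢
  obtain ⟨u, hu⟩ : ∃ u, u = q ^ r := ⟨_, rfl⟩
  have e1 : (q : ℤ) ^ (r + 2) = q ^ 2 * u := by rw [hu]; push_cast; ring
  have e2 : (q : ℤ) ^ (r + 1) = q * u := by rw [hu]; push_cast; ring
  have e3 : (q : ℤ) ^ (2 * (r + 1)) = q ^ 2 * u ^ 2 := by rw [hu]; push_cast; ring
  have e4 : (q : ℤ) ^ r = u := by rw [hu]; push_cast; rfl
  rw [e1, e2] at hs
  rw [e1, e3, e4]
  have h1 := card_Pts_mul (F := F) (V := ι → F) (Q := Q)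
  rw [Nat.card_eq_fintype_card (α := F), ← hqdef] at h1
  set n := Nat.card (Pts Q) with hn
  have h2 : (n : ℤ) * (q - 1) = (q ^ 2 * u - ε) * (q * u + ε) := by
    have h3 : ((n * (q - 1) + 1 : ℕ) : ℤ) = (q ^ 2 * u - ε) * (q * u + ε) + 1 := by
      rw [← hs]; exact_mod_cast congrArg (Nat.cast (R := ℤ)) h1
    rw [Nat.cast_add, Nat.cast_mul, Nat.cast_sub (by omega)] at h3
    push_cast at h3
    linarith
  obtain ⟨k, a₀, b₀, A, B, hk, hk0, hpar, hD, hsum, hprod, hA, hB⟩ := all_pm hε hq2 (by omega) hu h2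
  have hl : q ^ (2 * (r + 2) - 2) = q ^ 2 * u ^ 2 := by
    rw [show 2 * (r + 2) - 2 = 2 + r * 2 by omega, pow_add, hu, pow_mul]
  refine ⟨A, B, hA, hB, chars_of Q hG hN hk0 (by rw [← hqdef, hl]) ?_ hpar hD hsum hprod⟩
  rw [← hqdef, ← hk, h1]

/-- helper: from the arithmetic to the characters, odd dimension -/
theorem chars_o {ι : Type} [Fintype ι] [DecidableEq ι] (Q : QuadraticForm F (ι → F)) (hG : Good Q)
    {q m : ℕ} (hq : Fintype.card F = q) (hodd : Odd q) (hm : 3 ≤ m) (hN : Fintype.card ι = 2 * m + 1)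
    (hs : Nat.card {v : ι → F // Q v = 0} = q ^ (2 * m)) :
    ∃ A B : ℕ, (A : ℤ) * (2 * (q - 1)) = q * ((q ^ m + 1) * (q ^ (m - 1) - 1)) ∧
      (B : ℤ) * (2 * (q - 1)) = q * ((q ^ m - 1) * (q ^ (m - 1) + 1)) ∧
      HasDeg (Cfsg.POmega F ⇑Q) A ∧ HasDeg (Cfsg.POmega F ⇑Q) B := by
  subst hq
  set q := Fintype.card F with hqdef
  have hq2 : 2 ≤ q := Fintype.one_lt_card
  have hq3 : 3 ≤ q := by
    obtain ⟨x, hx⟩ := hodd
    omega
  obtain ⟨r, rfl⟩ : ∃ r, m = r + 1 := ⟨m - 1, by omega⟩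
  rw [show r + 1 - 1 = r by omega]
  obtain ⟨u, hu⟩ : ∃ u, u = q ^ r := ⟨_, rfl⟩
  have e1 : (q : ℤ) ^ (r + 1) = q * u := by rw [hu]; push_cast; ring
  have e4 : (q : ℤ) ^ r = u := by rw [hu]; push_cast; rfl
  have e5 : q ^ (2 * (r + 1)) = q ^ 2 * u ^ 2 := by rw [hu]; ring
  rw [e1, e4]
  have h1 := card_Pts_mul (F := F) (V := ι → F) (Q := Q)
  rw [Nat.card_eq_fintype_card (α := F), ← hqdef] at h1
  set n := Nat.card (Pts Q) with hn
  have h2 : (n : ℤ) * (q - 1) = q ^ 2 * u ^ 2 - 1 := by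
    have h3 : ((n * (q - 1) + 1 : ℕ) : ℤ) = ((q ^ 2 * u ^ 2 : ℕ) : ℤ) := by
      rw [← e5, ← hs]; exact_mod_cast congrArg (Nat.cast (R := ℤ)) h1
    rw [Nat.cast_add, Nat.cast_mul, Nat.cast_sub (by omega)] at h3
    push_cast at h3
    linarith
  obtain ⟨k, a₀, b₀, A, B, hk, hk0, hpar, hD, hsum, hprod, hA, hB⟩ := all_odd hq3 hodd (by omega) hu h2
  have hl : q ^ (2 * (r + 1) + 1 - 2) = q * u ^ 2 := by
    rw [show 2 * (r + 1) + 1 - 2 = 1 + r * 2 by omega, pow_add, hu, pow_mul, pow_one]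
  refine ⟨A, B, hA, hB, chars_of Q hG hN hk0 (by rw [← hqdef, hl]) ?_ hpar hD hsum hprod⟩
  rw [← hqdef, ← hk, h1]

theorem chars_plus {q m : ℕ} (hq : Fintype.card F = q) (hm : 4 ≤ m) :
    ∃ A B : ℕ, (A : ℤ) * (q ^ 2 - 1) = q * ((q ^ m - 1) * (q ^ (m - 2) + 1)) ∧
      (B : ℤ) * (q ^ 2 - 1) = q ^ 2 * (q ^ (2 * (m - 1)) - 1) ∧
      HasDeg (Cfsg.POmega F (quadFormPlus m F)) A ∧ HasDeg (Cfsg.POmega F (quadFormPlus m F)) B := by
  have hq2 : 2 ≤ q := hq ▸ Fintype.one_lt_card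
  have key := chars_pm (OrthForms.plusForm m F) (good_of_finite (OrthForms.nondeg_plusForm m F) (by
    rw [Module.finrank_fintype_fun_eq_card, Fintype.card_sum, Fintype.card_fin]; omega)) hq hm
    (by rw [Fintype.card_sum, Fintype.card_fin]; omega) (ε := 1) (Or.inl rfl) (by
      rw [OrthForms.coe_plusForm, Cfsg.Agent.S0289.result hq m (by omega)]
      obtain ⟨r, rfl⟩ : ∃ r, m = r + 1 := ⟨m - 1, by omega⟩
      have h1 : q ^ (r + 1 - 1) ≤ q ^ (2 * (r + 1) - 1) + q ^ (r + 1) :=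
        (Nat.pow_le_pow_right (by omega) (by omega)).trans (Nat.le_add_right _ _)
      rw [Nat.cast_sub h1, show r + 1 - 1 = r by omega, show 2 * (r + 1) - 1 = 2 * r + 1 by omega]
      push_cast
      ring)
  rw [OrthForms.coe_plusForm] at key
  exact key

theorem chars_minus {q m : ℕ} (hq : Fintype.card F = q) (hm : 4 ≤ m) (a b : F)
    (hab : ∀ z₁ z₂ : F, z₁ ^ 2 + a * z₁ * z₂ + b * z₂ ^ 2 = 0 → z₁ = 0 ∧ z₂ = 0) :
    ∃ A B : ℕ, (A : ℤ) * (q ^ 2 - 1) = q * ((q ^ m + 1) * (q ^ (m - 2) - 1)) ∧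
      (B : ℤ) * (q ^ 2 - 1) = q ^ 2 * (q ^ (2 * (m - 1)) - 1) ∧
      HasDeg (Cfsg.POmega F (quadFormMinus (m - 1) F a b)) A ∧
      HasDeg (Cfsg.POmega F (quadFormMinus (m - 1) F a b)) B := by
  have hq2 : 2 ≤ q := hq ▸ Fintype.one_lt_card
  have key := chars_pm (OrthForms.minusForm (m - 1) F a b) (good_of_finite
    (OrthForms.nondeg_minusForm (m - 1) F a b hab) (by
    rw [Module.finrank_fintype_fun_eq_card, Fintype.card_sum, Fintype.card_sum, Fintype.card_fin,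
      Fintype.card_fin]; omega)) hq hm
    (by rw [Fintype.card_sum, Fintype.card_sum, Fintype.card_fin, Fintype.card_fin]; omega) (ε := -1)
    (Or.inr rfl) (by
      rw [OrthForms.coe_minusForm, Cfsg.Agent.S0290.result hq m (by omega) a b hab]
      obtain ⟨r, rfl⟩ : ∃ r, m = r + 1 := ⟨m - 1, by omega⟩
      have h1 : q ^ (r + 1) ≤ q ^ (2 * (r + 1) - 1) + q ^ (r + 1 - 1) :=
        (Nat.pow_le_pow_right (by omega) (by omega)).trans (Nat.le_add_right _ _)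
      rw [Nat.cast_sub h1, show r + 1 - 1 = r by omega, show 2 * (r + 1) - 1 = 2 * r + 1 by omega]
      push_cast
      ring)
  rw [OrthForms.coe_minusForm] at key
  obtain ⟨A, B, h1, h2, h3⟩ := key
  exact ⟨A, B, by rw [h1]; ring, h2, h3⟩

theorem chars_odd {q m : ℕ} (hq : Fintype.card F = q) (hodd : Odd q) (hm : 3 ≤ m) :
    ∃ A B : ℕ, (A : ℤ) * (2 * (q - 1)) = q * ((q ^ m + 1) * (q ^ (m - 1) - 1)) ∧
      (B : ℤ) * (2 * (q - 1)) = q * ((q ^ m - 1) * (q ^ (m - 1) + 1)) ∧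
      HasDeg (Cfsg.POmega F (quadFormOdd m F)) A ∧ HasDeg (Cfsg.POmega F (quadFormOdd m F)) B := by
  have h2 : (2 : F) ≠ 0 := by
    intro h2
    have h3 : ringChar F ∣ 2 := (ringChar.spec F 2).1 (by exact_mod_cast h2)
    have h4 : ringChar F = 2 := (Nat.prime_dvd_prime_iff_eq (CharP.char_is_prime F (ringChar F)) Nat.prime_two).1 h3
    rw [← hq] at hodd
    exact Nat.not_even_iff_odd.2 hodd (Nat.even_iff.2 (FiniteField.even_card_of_char_two h4))
  have key := chars_o (OrthForms.oddForm m F) (good_of_finite (OrthForms.nondeg_oddForm m F h2) (by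
    rw [Module.finrank_fintype_fun_eq_card, Fintype.card_sum, Fintype.card_sum, Fintype.card_fin,
      Fintype.card_unit]; omega)) hq hodd hm
    (by rw [Fintype.card_sum, Fintype.card_sum, Fintype.card_fin, Fintype.card_unit]; omega) (by
      rw [OrthForms.coe_oddForm, Cfsg.Agent.S0291.result hq hodd m])
  rw [OrthForms.coe_oddForm] at key
  exact key

end Cfsg.Agent.H397.Rk
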