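import Cfsg.Agent.H397.Rk.Elem
import Cfsg.Agent.H397.Rk.Chars

/-!
# Elements of `POmega` of orders `r`, `r p`, `r s` (helper397)
-/

set_option autoImplicit false
set_option linter.unusedSectionVars false
set_option linter.style.haveILetI false

namespace Cfsg.Agent.H397.Rk

open QuadraticMap Cfsg.Agent.LieClassical.OrthCore Cfsg.Agent.LieClassical.OrthTrans
  Cfsg.Agent.LieClassical.OrthSimple Cfsg.Agent.LieClassical.OrthFinite
  Cfsg.Agent.ClassicalGeometry.OrthAut1 Cfsg.Agent.ClassicalGeometry.OrthAut2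
  Cfsg.Agent.ClassicalGeometry.OrthAut3 Cfsg.Agent.H397.FxOrth Cfsg.Agent.H175.OmegaAdjust

variable {F : Type} [Field F] [Fintype F] {ι : Type} [Fintype ι] [DecidableEq ι] {Q : QuadraticForm F (ι → F)}

theorem isSquare_two (h2 : (2 : F) = 0) (a : F) : ∃ c : F, c * c = a := by
  have h : ringChar F = 2 := by
    have h3 : ringChar F ∣ 2 := (ringChar.spec F 2).1 (by exact_mod_cast h2)
    exact (Nat.prime_dvd_prime_iff_eq (CharP.char_is_prime F (ringChar F)) Nat.prime_two).1 h3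
  obtain ⟨c, hc⟩ := FiniteField.isSquare_of_char_two h a
  exact ⟨c, hc.symm⟩

/-- in characteristic two a nonzero non-degenerate space represents everything -/
theorem exists_value_two (h2 : (2 : F) = 0) {X : Submodule F (ι → F)} (hX : NDs Q X) (hd : 1 ≤ Module.finrank F X)
    (a : F) : ∃ v ∈ X, Q v = a := by
  obtain ⟨v, hv, hv0⟩ := exists_nonsing Q X (by
    rintro rfl
    rw [finrank_bot] at hd
    omega) hX
  obtain ⟨c, hc⟩ := isSquare_two h2 (a * (Q v)⁻¹)
  refine ⟨c • v, X.smul_mem _ hv, ?_⟩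
  rw [QuadraticMap.map_smul, smul_eq_mul, hc, mul_assoc, inv_mul_cancel₀ hv0, mul_one]

/-- `v, w` with `Q v = Q w = b(v, w) = 1` -/
theorem exists_pair_three (h2 : (2 : F) = 0) {X : Submodule F (ι → F)} (hX : NDs Q X)
    (hd : 3 ≤ Module.finrank F X) : ∃ v ∈ X, ∃ w ∈ X, Q v = 1 ∧ Q w = 1 ∧ polar Q v w = 1 := by
  obtain ⟨v, hv, hv1⟩ := exists_value_two h2 hX (by omega) (1 : F)
  obtain ⟨w₀, hw₀, hvw₀⟩ : ∃ w ∈ X, polar Q v w = 1 := by
    have hv0 : v ≠ 0 := by
      rintro rfl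
      rw [map_zero] at hv1
      exact zero_ne_one hv1
    obtain ⟨w, hw, h⟩ : ∃ w ∈ X, polar Q v w ≠ 0 := by
      by_contra hcon
      push Not at hcon
      exact hv0 (hX v hv hcon)
    exact ⟨(polar Q v w)⁻¹ • w, X.smul_mem _ hw, by rw [polar_smul_right, smul_eq_mul, inv_mul_cancel₀ h]⟩
  have hdet : 4 * Q v * Q w₀ - polar Q v w₀ ^ 2 ≠ 0 := by
    have h4 : (4 : F) = 0 := by linear_combination 2 * h2
    rw [h4, hvw₀]
    simp
  have hnd := pp_nd hX hv hw₀ hdet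
  have hfr := finrank_pp (Q := Q) X v w₀
  obtain ⟨z, hz, hzQ⟩ := exists_value_two h2 hnd (by omega) (1 - Q w₀)
  obtain ⟨⟨hzX, hvz⟩, hwz⟩ := mem_pp.1 hz
  refine ⟨v, hv, w₀ + z, X.add_mem hw₀ hzX, hv1, ?_, ?_⟩
  · rw [Q_add, hzQ, hwz]; ring
  · rw [polar_add_right, hvw₀, hvz, add_zero]

/-- `v, w` with `Q v = Q w = 1`, orthogonal -/
theorem exists_pair_two (h2 : (2 : F) ≠ 0) {X : Submodule F (ι → F)} (hX : NDs Q X)
    (hd : 3 ≤ Module.finrank F X) : ∃ v ∈ X, ∃ w ∈ X, Q v = 1 ∧ Q w = 1 ∧ polar Q v w = 0 := by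
  obtain ⟨v, hv, w, hw, gv, gw, hi⟩ := exists_two Q X hX (Or.inl ⟨h2, hd⟩)
  exact ⟨v, hv, w, hw, gv.2.resolve_left h2, gw.2.resolve_left h2, hi.1⟩

/-- the small prime -/
def sp (p : ℕ) : ℕ := if p = 2 then 3 else 2

theorem sp_prime (p : ℕ) : (sp p).Prime := by
  unfold sp
  split_ifs
  · exact Nat.prime_three
  · exact Nat.prime_two

theorem sp_ne {p : ℕ} : sp p ≠ p := by
  unfold sp
  split_ifs with h
  · omega
  · exact fun h' => h h'.symm

/-- a rotation of order `2` or `3` in `X`, with a large non-degenerate fixed space -/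
theorem exists_rot (hG : Good Q) {p : ℕ} (hp : p.Prime) [CharP F p] {X : Submodule F (ι → F)} (hX : NDs Q X)
    (hd : 3 ≤ Module.finrank F X) : ∃ t : ↥(E Q), orderOf t = sp p ∧ Loc X t ∧
      ∃ Y : Submodule F (ι → F), NDs Q Y ∧ (∀ x ∈ Y, (t : (ι → F) ≃ₗ[F] (ι → F)) x = x) ∧
        Fintype.card ι ≤ Module.finrank F Y + 2 := by
  have hfr : Module.finrank F ↥(⊤ : Submodule F (ι → F)) = Fintype.card ι := by
    rw [finrank_top, Module.finrank_fintype_fun_eq_card]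
  by_cases h2 : p = 2
  · subst h2
    have h20 : (2 : F) = 0 := by
      have := CharP.cast_eq_zero F 2
      exact_mod_cast this
    have h30 : (3 : F) ≠ 0 := by
      have : (3 : F) = 1 := by linear_combination h20
      rw [this]
      exact one_ne_zero
    obtain ⟨v, hv, w, hw, hQv, hQw, hvw⟩ := exists_pair_three h20 hX hd
    have hv' : Q v ≠ 0 := by rw [hQv]; exact one_ne_zero
    have hw' : Q w ≠ 0 := by rw [hQw]; exact one_ne_zero
    refine ⟨rr hG hv' hw' (hQv.trans hQw.symm), ?_, rr_loc hG hv' hw' _ hv hw, pp Q ⊤ v w, ?_, ?_, ?_⟩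
    · rw [rr_three hG hQv hQw hvw h30]; rfl
    · refine pp_nd (nds_top hG.nondeg) trivial trivial ?_
      have h4 : (4 : F) = 0 := by linear_combination 2 * h20
      rw [h4, hvw]
      simp
    · intro x hx
      exact rr_fix hG hv' hw' _ (mem_pp.1 hx).1.2 (mem_pp.1 hx).2
    · rw [← hfr]
      exact finrank_pp _ v w
  · have h20 : (2 : F) ≠ 0 := by
      intro h
      have h3 : p ∣ 2 := (CharP.cast_eq_zero_iff F p 2).1 (by exact_mod_cast h)
      exact h2 ((Nat.prime_dvd_prime_iff_eq hp Nat.prime_two).1 h3)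
    obtain ⟨v, hv, w, hw, hQv, hQw, hvw⟩ := exists_pair_two h20 hX hd
    have hv' : Q v ≠ 0 := by rw [hQv]; exact one_ne_zero
    have hw' : Q w ≠ 0 := by rw [hQw]; exact one_ne_zero
    refine ⟨rr hG hv' hw' (hQv.trans hQw.symm), ?_, rr_loc hG hv' hw' _ hv hw, pp Q ⊤ v w, ?_, ?_, ?_⟩
    · rw [rr_invol hG h20 hQv hQw hvw]
      unfold sp
      rw [if_neg h2]
    · refine pp_nd (nds_top hG.nondeg) trivial trivial ?_
      rw [hQv, hQw, hvw]
      have h4 : (4 : F) = 2 * 2 := by norm_num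
      rw [mul_one, mul_one, zero_pow two_ne_zero, sub_zero, h4]
      exact mul_ne_zero h20 h20
    · intro x hx
      exact rr_fix hG hv' hw' _ (mem_pp.1 hx).1.2 (mem_pp.1 hx).2
    · rw [← hfr]
      exact finrank_pp _ v w

/-! ### anisotropic planes -/

theorem square_ratio {a b c : F} (ha : a ≠ 0) (hb : b ≠ 0) (hc : c ≠ 0) :
    (∃ t : F, t * t * a = b) ∨ (∃ t : F, t * t * a = c) ∨ ∃ t : F, t * t * b = c := by
  classical
  have key : ∀ x y : F, x ≠ 0 → IsSquare (y * x⁻¹) → ∃ t : F, t * t * x = y := by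
    rintro x y hx ⟨t, ht⟩
    exact ⟨t, by rw [← ht, mul_assoc, inv_mul_cancel₀ hx, mul_one]⟩
  by_cases h2 : (2 : F) = 0
  · left
    obtain ⟨t, ht⟩ := isSquare_two h2 (b * a⁻¹)
    exact key a b ha ⟨t, ht.symm⟩
  · have hF : ringChar F ≠ 2 := by
      intro h
      have := ringChar.Nat.cast_ringChar (R := F)
      rw [h] at this
      exact h2 (by exact_mod_cast this)
    by_cases h3 : IsSquare (b * a⁻¹)
    · exact Or.inl (key a b ha h3)
    by_cases h4 : IsSquare (c * a⁻¹)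
    · exact Or.inr (Or.inl (key a c ha h4))
    right; right
    apply key b c hb
    have h5 : b * a⁻¹ ≠ 0 := mul_ne_zero hb (inv_ne_zero ha)
    have h6 : c * a⁻¹ ≠ 0 := mul_ne_zero hc (inv_ne_zero ha)
    have h7 := (quadraticChar_neg_one_iff_not_isSquare (F := F)).2 h3
    have h8 := (quadraticChar_neg_one_iff_not_isSquare (F := F)).2 h4
    have h9 : quadraticChar F ((c * a⁻¹) * (b * a⁻¹)) = 1 := by
      rw [map_mul, h7, h8]; norm_num
    have h10 := (quadraticChar_one_iff_isSquare (F := F) (mul_ne_zero h6 h5)).1 h9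
    obtain ⟨t, ht⟩ := h10
    refine ⟨t * a * b⁻¹, ?_⟩
    field_simp
    field_simp at ht
    linear_combination ht

theorem exists_pair_aniso {X : Submodule F (ι → F)} (hd : 2 ≤ Module.finrank F X)
    (hX : ∀ x ∈ X, Q x = 0 → x = 0) :
    ∃ v ∈ X, ∃ w ∈ X, Q v ≠ 0 ∧ Q w ≠ 0 ∧ Q v = Q w ∧ ∀ c : F, v ≠ c • w := by
  -- two independent vectors
  have hfin : Module.Finite F X := inferInstance
  let bs := Module.finBasis F X
  let b : Fin 2 → X := fun i => bs (Fin.castLE hd i)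
  have hb : LinearIndependent F b := bs.linearIndependent.comp _ (Fin.castLE_injective hd)
  have hli : ∀ s t : F, s • (b 0 : ι → F) + t • (b 1 : ι → F) = 0 → s = 0 ∧ t = 0 := by
    intro s t h
    have h1 := Fintype.linearIndependent_iff.1 hb ![s, t] (by
      rw [Fin.sum_univ_two]
      apply Subtype.ext
      simpa using h)
    exact ⟨h1 0, h1 1⟩
  have hx0 : (b 0 : ι → F) ≠ 0 := fun h => one_ne_zero (hli 1 0 (by rw [h, smul_zero, zero_smul, add_zero])).1
  have hx1 : (b 1 : ι → F) ≠ 0 := fun h => one_ne_zero (hli 0 1 (by rw [h, smul_zero, zero_smul, add_zero])).2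
  have hx2 : (b 0 : ι → F) + b 1 ≠ 0 := fun h => one_ne_zero (hli 1 1 (by rw [one_smul, one_smul, h])).1
  have q0 : Q (b 0 : ι → F) ≠ 0 := fun h => hx0 (hX _ (b 0).2 h)
  have q1 : Q (b 1 : ι → F) ≠ 0 := fun h => hx1 (hX _ (b 1).2 h)
  have q2 : Q ((b 0 : ι → F) + b 1) ≠ 0 := fun h => hx2 (hX _ (X.add_mem (b 0).2 (b 1).2) h)
  have fin : ∀ x ∈ X, ∀ y ∈ X, Q x ≠ 0 → Q y ≠ 0 → (∀ s t : F, s • x + t • y = 0 → s = 0 ∧ t = 0) →
      (∃ t : F, t * t * Q x = Q y) →
      ∃ v ∈ X, ∃ w ∈ X, Q v ≠ 0 ∧ Q w ≠ 0 ∧ Q v = Q w ∧ ∀ c : F, v ≠ c • w := by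
    rintro x hx y hy hQx hQy hxy ⟨t, ht⟩
    have e : Q (t • x) = Q y := by rw [QuadraticMap.map_smul, smul_eq_mul, ht]
    have ht0 : t ≠ 0 := by
      rintro rfl
      rw [mul_zero, zero_mul] at ht
      exact hQy ht.symm
    refine ⟨t • x, X.smul_mem _ hx, y, hy, by rw [e]; exact hQy, hQy, e, fun c hc => ht0 ?_⟩
    exact (hxy t (-c) (by rw [hc, neg_smul, add_neg_cancel])).1
  rcases square_ratio q0 q1 q2 with h | h | h
  · exact fin _ (b 0).2 _ (b 1).2 q0 q1 hli h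
  · refine fin _ (b 0).2 _ (X.add_mem (b 0).2 (b 1).2) q0 q2 (fun s t hst => ?_) h
    have h1 := hli (s + t) t (by rw [← hst]; module)
    exact ⟨by rw [h1.2, add_zero] at h1; exact h1.1, h1.2⟩
  · refine fin _ (b 1).2 _ (X.add_mem (b 0).2 (b 1).2) q1 q2 (fun s t hst => ?_) h
    have h1 := hli t (s + t) (by rw [← hst]; module)
    exact ⟨by rw [h1.1, add_zero] at h1; exact h1.2, h1.1⟩

end Cfsg.Agent.H397.Rk
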