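import Cfsg.Agent.H397.Rk.Atoms
import Cfsg.Agent.H397.Rk.Chars
import Cfsg.Agent.H504.TwoRows

/-!
# Two characters with three zeros for the orthogonal groups: the frame (helper397)
-/

set_option autoImplicit false
set_option linter.unusedSectionVars false
set_option linter.style.haveILetI false

namespace Cfsg.Agent.H397.Rk

open QuadraticMap Cfsg Cfsg.Agent.LieClassical.OrthCore Cfsg.Agent.LieClassical.OrthTrans
  Cfsg.Agent.LieClassical.OrthSimple Cfsg.Agent.LieClassical.OrthFinite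
  Cfsg.Agent.ClassicalGeometry.OrthAut1 Cfsg.Agent.ClassicalGeometry.OrthAut2
  Cfsg.Agent.ClassicalGeometry.OrthAut3 Cfsg.Agent.H504.TwoZ Cfsg.Agent.H504.Zeros

/-- the Steinberg character and a character of `r`-defect zero -/
theorem two_of_deg {S : Type} [Group S] [Finite S] [IsSimpleGroup S] (hna : ¬ IsMulCommutative S) {p : ℕ}
    (hp : p.Prime) (hL : IsLieTypeChar p S) {d : ℕ} (hdeg : HasDeg S d) (s t : Finset ℕ) (hs3 : 3 ≤ s.card)
    (ht3 : 3 ≤ t.card) (hs : ∀ n ∈ s, p ∣ n ∧ HasOrd S n)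
    (ht : ∀ n ∈ t, HasOrd S n ∧ ∃ r : ℕ, r.Prime ∧ r ≠ p ∧ r ∣ n ∧
      d.factorization r = (Nat.card S).factorization r) : Two S := by
  haveI : Fact p.Prime := ⟨hp⟩
  obtain ⟨θ, h1, -⟩ := Cfsg.Agent.H761.LieExt.lie_ext hna hL
  obtain ⟨χ, hχ⟩ := hdeg
  obtain ⟨s', hs', hsc, hso⟩ := exists_of_orders (G := S) s fun n hn => (hs n hn).2
  obtain ⟨t', ht', htc, hto⟩ := exists_of_orders (G := S) t fun n hn => (ht n hn).1
  refine two_of_zeros (χ := θ) (ψ := χ) ?_ s' t' hs' ht' ?_ ?_ (hs3.trans hsc.ge) (ht3.trans htc.ge)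
  · intro h
    obtain ⟨n, hn⟩ : t.Nonempty := Finset.card_pos.1 (by omega)
    obtain ⟨⟨g, hg⟩, r, hr, hrp, hrn, hrd⟩ := ht n hn
    have h2 : d = p ^ (Nat.card S).factorization p := by rw [← hχ, ← h, h1]
    have h3 : r ∣ Nat.card S := hrn.trans (hg ▸ orderOf_dvd_natCard g)
    have h4 : 0 < d.factorization r := by
      rw [hrd]
      exact hr.factorization_pos_of_dvd Nat.card_pos.ne' h3
    rw [h2, Nat.factorization_pow, Finsupp.smul_apply, smul_eq_mul, Nat.factorization_eq_zero_of_not_dvd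
      (fun h5 => hrp ((Nat.prime_dvd_prime_iff_eq hr hp).1 h5)), mul_zero] at h4
    exact lt_irrefl 0 h4
  · intro g hg
    refine Cfsg.Agent.H713.irr_zero_of_singular ?_ (hs _ (hso g hg)).1
    rw [h1, Nat.factorization_pow, Finsupp.smul_apply, hp.factorization_self, smul_eq_mul, mul_one]
  · intro g hg
    obtain ⟨-, r, hr, hrp, hrn, hrd⟩ := ht _ (hto g hg)
    haveI : Fact r.Prime := ⟨hr⟩
    exact Cfsg.Agent.H713.irr_zero_of_singular (by rw [hχ, hrd]) hrn

variable {F : Type} [Field F] [Fintype F] {ι : Type} [Fintype ι] [DecidableEq ι] {Q : QuadraticForm F (ι → F)}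

/-- `POmega` as `P Q` -/
noncomputable def pEquiv (hG : Good Q) : Cfsg.POmega F ⇑Q ≃* P Q :=
  quotientCenterCongr ((omegaEquiv Q).trans (MulEquiv.subgroupCongr hG.commutator_eq_E))

theorem card_pomega_dvd : Nat.card (Cfsg.POmega F ⇑Q) ∣ Nat.card (Cfsg.isometryGroup F ⇑Q) :=
  (Subgroup.card_quotient_dvd_card _).trans (Subgroup.card_subgroup_dvd_card _)

/-- the facts on the prime `r` -/
theorem cast_ne_zero_of_not_dvd {q r : ℕ} (hq : Fintype.card F = q) (hr : r.Prime) (h : ¬ r ∣ q) : (r : F) ≠ 0 := by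
  intro h0
  apply h
  obtain ⟨p, hp⟩ := CharP.exists F
  obtain ⟨m, hp', hm⟩ := FiniteField.card F p
  have h1 : p ∣ r := (CharP.cast_eq_zero_iff F p r).1 h0
  have h2 : p = r := (Nat.prime_dvd_prime_iff_eq hp' hr).1 h1
  rw [← hq, hm, ← h2]
  exact dvd_pow_self p m.pos.ne'

theorem orderOf_of_iff {q r n : ℕ} (hq : 1 ≤ q) (h : ∀ m, r ∣ q ^ m - 1 ↔ n ∣ m) :
    orderOf (q : ZMod r) = n := by
  have key : ∀ m, (q : ZMod r) ^ m = 1 ↔ n ∣ m := by
    intro m
    rw [← h m]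
    have h1 : 1 ≤ q ^ m := Nat.one_le_pow _ _ hq
    rw [← ZMod.natCast_eq_zero_iff, Nat.cast_sub h1, sub_eq_zero]
    push_cast
    rfl
  apply Nat.dvd_antisymm
  · rw [orderOf_dvd_iff_pow_eq_one, key]
  · rw [← key]
    exact pow_orderOf_eq_one _

theorem wd_even {q r n : ℕ} (h : orderOf (q : ZMod r) = n) (hn : Even n) : wd q r = n := by
  unfold wd
  rw [h, if_neg (Nat.not_odd_iff_even.2 hn)]

theorem wd_odd {q r n : ℕ} (h : orderOf (q : ZMod r) = n) (hn : Odd n) : wd q r = 2 * n := by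
  unfold wd
  rw [h, if_pos hn]

/-- an odd prime divisor of `q ^ 2 + 1` -/
theorem exists_four {q : ℕ} (hq : 2 ≤ q) : ∃ r : ℕ, r.Prime ∧ r ≠ 2 ∧ ¬ r ∣ q ∧ r ∣ q ^ 2 + 1 ∧
    orderOf (q : ZMod r) = 4 := by
  obtain ⟨r, hr, hr2, hrd⟩ : ∃ r : ℕ, r.Prime ∧ r ≠ 2 ∧ r ∣ q ^ 2 + 1 := by
    rcases Nat.even_or_odd q with ⟨k, hk⟩ | ⟨k, hk⟩
    · obtain ⟨r, hr, hrd⟩ := Nat.exists_prime_and_dvd (n := q ^ 2 + 1) (by nlinarith)
      refine ⟨r, hr, ?_, hrd⟩
      rintro rfl
      have : Odd (q ^ 2 + 1) := ⟨2 * k ^ 2, by rw [hk]; ring⟩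
      exact Nat.not_even_iff_odd.2 this (even_iff_two_dvd.2 hrd)
    · have h1 : q ^ 2 + 1 = 2 * (2 * (k ^ 2 + k) + 1) := by rw [hk]; ring
      obtain ⟨r, hr, hrd⟩ := Nat.exists_prime_and_dvd (n := 2 * (k ^ 2 + k) + 1) (by
        have : 1 ≤ k := by omega
        nlinarith)
      refine ⟨r, hr, ?_, h1 ▸ Dvd.dvd.mul_left hrd 2⟩
      rintro rfl
      omega
  haveI : Fact r.Prime := ⟨hr⟩
  have h1 : (q : ZMod r) ^ 2 = -1 := by
    have h2 := (ZMod.natCast_eq_zero_iff (q ^ 2 + 1) r).2 hrd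
    push_cast at h2
    linear_combination h2
  have h2 : (-1 : ZMod r) ≠ 1 := by
    intro h3
    have h4 : ((2 : ℕ) : ZMod r) = 0 := by
      push_cast
      linear_combination -h3
    rw [ZMod.natCast_eq_zero_iff] at h4
    exact hr2 ((Nat.prime_dvd_prime_iff_eq hr Nat.prime_two).1 h4)
  refine ⟨r, hr, hr2, ?_, hrd, ?_⟩
  · intro h3
    have h4 : (q : ZMod r) = 0 := (ZMod.natCast_eq_zero_iff q r).2 h3
    rw [h4] at h1
    have h5 : (1 : ZMod r) = 0 := by linear_combination h1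
    exact one_ne_zero h5
  · have h3 : orderOf (q : ZMod r) ∣ 2 ^ 2 := by
      rw [orderOf_dvd_iff_pow_eq_one, show 2 ^ 2 = 2 * 2 from rfl, pow_mul, h1]
      ring
    rw [show 4 = 2 ^ (1 + 1) from rfl]
    refine orderOf_eq_prime_pow ?_ ?_
    · rw [pow_one, h1]
      exact h2
    · exact orderOf_dvd_iff_pow_eq_one.1 h3

section

variable (hG : Good Q) {q : ℕ} (hq : Fintype.card F = q) (h7 : 7 ≤ Fintype.card ι) {p : ℕ} (hp : p.Prime) [CharP F p]

include hG hq h7 hp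

/-- the three orders divisible by the characteristic -/
theorem lie_orders (h4 : ∀ r : ℕ, r ∣ q ^ 2 + 1 → r.Prime → r ≠ 2 → r ∣ Nat.card (Cfsg.POmega F ⇑Q)) :
    ∃ s : Finset ℕ, 3 ≤ s.card ∧ ∀ n ∈ s, p ∣ n ∧ HasOrd (Cfsg.POmega F ⇑Q) n := by
  have hq2 : 2 ≤ q := hq ▸ Fintype.one_lt_card
  obtain ⟨r, hr, hr2, hrq, hrd, hro⟩ := exists_four hq2
  have hrF := cast_ne_zero_of_not_dvd hq hr hrq
  obtain ⟨y, X, hy⟩ := exists_elt hG (by omega) hr hr2 hrF ((h4 r hrd hr hr2).trans card_pomega_dvd)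
  rw [hq, wd_even hro ⟨2, rfl⟩] at hy
  have hX : 3 ≤ Module.finrank F X := by
    have := hy.fin
    omega
  have hrp : r ≠ p := by
    rintro rfl
    exact hrF (CharP.cast_eq_zero F r)
  have hrs : r ≠ sp p := by
    unfold sp
    split_ifs with h
    · rintro rfl
      have h1 : orderOf (q : ZMod 3) ∣ 3 - 1 := by
        haveI : Fact (Nat.Prime 3) := ⟨Nat.prime_three⟩
        refine ZMod.orderOf_dvd_card_sub_one ?_
        intro h2
        exact hrq ((ZMod.natCast_eq_zero_iff q 3).1 h2)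
      rw [hro] at h1
      omega
    · exact hr2
  refine ⟨{p, p * sp p, r * p}, ?_, ?_⟩
  · have h1 := hp.two_le
    have h2 := (sp_prime p).two_le
    have h3 := hr.two_le
    have e1 : p ≠ p * sp p := by nlinarith
    have e2 : p ≠ r * p := by nlinarith
    have e3 : p * sp p ≠ r * p := by
      rw [mul_comm]
      intro h
      exact hrs (Nat.eq_of_mul_eq_mul_right (by omega) h).symm
    rw [Finset.card_insert_of_notMem, Finset.card_insert_of_notMem, Finset.card_singleton]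
    · rw [Finset.mem_singleton]
      exact e3
    · rw [Finset.mem_insert, Finset.mem_singleton, not_or]
      exact ⟨e1, e2⟩
  · intro n hn
    rw [Finset.mem_insert, Finset.mem_insert, Finset.mem_singleton] at hn
    rcases hn with rfl | rfl | rfl
    · exact ⟨dvd_rfl, (hasOrd_p hG hp (by omega)).of_equiv (pEquiv hG)⟩
    · exact ⟨dvd_mul_right _ _, (hasOrd_ps hG hp (by omega)).of_equiv (pEquiv hG)⟩
    · exact ⟨dvd_mul_left _ _, (hy.hasOrd_p hG hr hr2 hp hrp hX).of_equiv (pEquiv hG)⟩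

/-- three orders divisible by `r` -/
theorem r_orders {r : ℕ} (hr : r.Prime) (h5 : 5 ≤ r) (hrq : ¬ r ∣ q) (hrd : r ∣ Nat.card (Cfsg.POmega F ⇑Q))
    (hw : wd q r + 3 ≤ Fintype.card ι) :
    ∃ s : Finset ℕ, 3 ≤ s.card ∧ ∀ n ∈ s, r ∣ n ∧ HasOrd (Cfsg.POmega F ⇑Q) n := by
  have hrF := cast_ne_zero_of_not_dvd hq hr hrq
  have hr2 : r ≠ 2 := by omega
  obtain ⟨y, X, hy⟩ := exists_elt hG (by omega) hr hr2 hrF (hrd.trans card_pomega_dvd)
  rw [hq] at hy
  have hX : 3 ≤ Module.finrank F X := by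
    have := hy.fin
    omega
  have hrp : r ≠ p := by
    rintro rfl
    exact hrF (CharP.cast_eq_zero F r)
  have hrs : r ≠ sp p := by
    unfold sp
    split_ifs with h <;> omega
  refine ⟨{r, r * p, r * sp p}, ?_, ?_⟩
  · have h1 := hp.two_le
    have h2 := (sp_prime p).two_le
    have e1 : r ≠ r * sp p := by nlinarith
    have e2 : r ≠ r * p := by nlinarith
    have e3 : r * p ≠ r * sp p := by
      intro h
      exact sp_ne (Nat.eq_of_mul_eq_mul_left (by omega) h).symm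
    rw [Finset.card_insert_of_notMem, Finset.card_insert_of_notMem, Finset.card_singleton]
    · rw [Finset.mem_singleton]
      exact e3
    · rw [Finset.mem_insert, Finset.mem_singleton, not_or]
      exact ⟨e2, e1⟩
  · intro n hn
    rw [Finset.mem_insert, Finset.mem_insert, Finset.mem_singleton] at hn
    rcases hn with rfl | rfl | rfl
    · exact ⟨dvd_rfl, (hy.hasOrd_self hG hr hr2).of_equiv (pEquiv hG)⟩
    · exact ⟨dvd_mul_right _ _, (hy.hasOrd_p hG hr hr2 hp hrp hX).of_equiv (pEquiv hG)⟩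
    · exact ⟨dvd_mul_right _ _, (hy.hasOrd_s hG hr hr2 hp hrs hX).of_equiv (pEquiv hG)⟩

end

/-- the part of `n` at `r` -/
theorem fac_eq {r a b c T : ℕ} (h : a * b = c * T) (hb : ¬ r ∣ b) (hc : ¬ r ∣ c) (ha : a ≠ 0)
    (hT : T ≠ 0) : a.factorization r = T.factorization r := by
  have hb0 : b ≠ 0 := by rintro rfl; exact hb (dvd_zero r)
  have hc0 : c ≠ 0 := by rintro rfl; exact hc (dvd_zero r)
  have h1 : (a * b).factorization r = (c * T).factorization r := by rw [h]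
  rw [Nat.factorization_mul ha hb0, Nat.factorization_mul hc0 hT, Finsupp.add_apply, Finsupp.add_apply,
    Nat.factorization_eq_zero_of_not_dvd hb, Nat.factorization_eq_zero_of_not_dvd hc] at h1
  omega

end Cfsg.Agent.H397.Rk
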