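import Cfsg.Agent.H397.Rk.TwoC
import Cfsg.Agent.S0295
import Cfsg.Agent.S0296
import Cfsg.Agent.S0297

/-!
# The orthogonal rows of S4897 (helper397)
-/

set_option autoImplicit false
set_option linter.unusedSectionVars false
set_option linter.style.haveILetI false

namespace Cfsg.Agent.H397.Rk

open QuadraticMap Cfsg Cfsg.Agent.LieClassical.OrthCore Cfsg.Agent.LieClassical.OrthTrans
  Cfsg.Agent.LieClassical.OrthSimple Cfsg.Agent.LieClassical.OrthFinite Cfsg.Agent.LieClassical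
  Cfsg.Agent.ClassicalGeometry.OrthAut1 Cfsg.Agent.ClassicalGeometry.OrthAut2
  Cfsg.Agent.ClassicalGeometry.OrthAut3 Cfsg.Agent.H504.TwoZ Cfsg.Agent.H504.Zeros

theorem not_comm_of_ord {S : Type*} [Group S] [Finite S] [IsSimpleGroup S] {a b : ℕ} (ha : 1 < a) (hb : 1 < b)
    (h : HasOrd S (a * b)) : ¬ IsMulCommutative S := by
  intro hc
  letI : CommGroup S := { ‹Group S› with mul_comm := hc.is_comm.comm }
  have h1 : (Nat.card S).Prime := IsSimpleGroup.prime_card
  obtain ⟨g, hg⟩ := h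
  have h2 : a * b ∣ Nat.card S := hg ▸ orderOf_dvd_natCard g
  rcases (Nat.dvd_prime h1).1 h2 with h3 | h3
  · nlinarith
  · exact Nat.not_prime_mul ha.ne' hb.ne' (h3 ▸ h1)

variable {F : Type} [Field F] [Fintype F]

section

variable {ι : Type} [Fintype ι] [DecidableEq ι] {Q : QuadraticForm F (ι → F)}
  (hG : Good Q) {q : ℕ} (hq : Fintype.card F = q) (h7 : 7 ≤ Fintype.card ι) {p : ℕ} (hp : p.Prime) [CharP F p]

include hG hq h7 hp

theorem not_comm (hS : IsSimpleGroup (Cfsg.POmega F ⇑Q)) : ¬ IsMulCommutative (Cfsg.POmega F ⇑Q) := by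
  haveI := finite_pom (Q := Q)
  exact not_comm_of_ord hp.one_lt (sp_prime p).one_lt ((hasOrd_ps hG hp (by omega)).of_equiv (pEquiv hG))

end

section

variable {ι : Type} [Fintype ι] [DecidableEq ι] {Q : QuadraticForm F (ι → F)} {φ : (ι → F) → F} (hφ : ⇑Q = φ)
  (hG : Good Q) {q : ℕ} (hq : Fintype.card F = q) (h7 : 7 ≤ Fintype.card ι) {p : ℕ} (hp : p.Prime) [CharP F p]
  (hS : IsSimpleGroup (Cfsg.POmega F φ)) (hL : IsLieTypeChar p (Cfsg.POmega F φ))
  (h4 : ∀ r : ℕ, r ∣ q ^ 2 + 1 → r.Prime → r ≠ 2 → r ∣ Nat.card (Cfsg.POmega F φ))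

include hφ hG hq h7 hp hS hL h4

theorem row2_gen : Row2 (Cfsg.POmega F φ) := by
  subst hφ
  exact row2_main hG hq h7 hp hS (not_comm hG hq h7 hp hS) hL h4

theorem rowT_r {d : ℕ} (hdeg : HasDeg (Cfsg.POmega F φ) d) {r n : ℕ} (hr : Prim q n r) (hn : 3 ≤ n)
    (hv : r ∣ Nat.card (Cfsg.POmega F φ) ∧ d.factorization r = (Nat.card (Cfsg.POmega F φ)).factorization r)
    (hw : wd q r + 3 ≤ Fintype.card ι) : RowT (Cfsg.POmega F φ) := by
  subst hφ
  exact ⟨Or.inl (two_main_r hG hq h7 hp hS (not_comm hG hq h7 hp hS) hL h4 hdeg hr hn hv.1 hw hv.2),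
    row2_main hG hq h7 hp hS (not_comm hG hq h7 hp hS) hL h4⟩

end

/-! ### odd dimension -/

theorem four_odd {q m : ℕ} (hq : Fintype.card F = q) (hodd : Odd q) (hm : 3 ≤ m) :
    ∀ r : ℕ, r ∣ q ^ 2 + 1 → r.Prime → r ≠ 2 → r ∣ Nat.card (Cfsg.POmega F (quadFormOdd m F)) := by
  intro r h hr hr2
  have h1 : r ∣ 2 * Nat.card (Cfsg.POmega F (quadFormOdd m F)) := by
    rw [Cfsg.Agent.S0292.result hq hodd m hm]
    exact Dvd.dvd.mul_left (dvd_four (by omega) h) _
  exact (hr.dvd_mul.1 h1).resolve_left fun h2 => hr2 ((Nat.prime_dvd_prime_iff_eq hr Nat.prime_two).1 h2)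

/-- **the row `PΩ_{2m+1}(q)`** -/
theorem rowT_oodd (F : Type) [Field F] [Fintype F] (m : ℕ) (hm : 3 ≤ m) (hF : Odd (Fintype.card F)) :
    RowT (POmega F (quadFormOdd m F)) := by
  obtain ⟨p, hpc⟩ := CharP.exists F
  have hp : p.Prime := CharP.char_is_prime F p
  have hq2 : 2 ≤ Fintype.card F := Fintype.one_lt_card
  have h2 : (2 : F) ≠ 0 := by
    have h := cast_ne_zero_of_not_dvd (F := F) rfl Nat.prime_two (fun h => Nat.not_even_iff_odd.2 hF (even_iff_two_dvd.2 h))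
    exact_mod_cast h
  have hS := Cfsg.Agent.S0295.result (F := F) hF m hm
  haveI : Finite (POmega F (quadFormOdd m F)) := Quotient.finite _
  obtain ⟨A, B, -, hB, -, hdeg⟩ := chars_odd (F := F) (m := m) rfl hF hm
  obtain ⟨r, hr⟩ := exists_prim (q := Fintype.card F) (n := 2 * (m - 1)) hq2 (by omega) (by
    rintro ⟨h5, -⟩
    rw [h5] at hF
    exact absurd hF (by decide))
  have hcard : Fintype.card (Unit ⊕ (Fin m ⊕ Fin m)) = 2 * m + 1 := by
    rw [Fintype.card_sum, Fintype.card_sum, Fintype.card_fin, Fintype.card_unit]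
    omega
  refine rowT_r (OrthForms.coe_oddForm m F) (good_of_finite (OrthForms.nondeg_oddForm m F h2) (by
    rw [Module.finrank_fintype_fun_eq_card, hcard]; omega)) rfl (by rw [hcard]; omega) hp hS
    (Or.inr (Or.inr (Or.inr (Or.inl ⟨F, inferInstance, inferInstance, inferInstance, m, hm, hF, ⟨MulEquiv.refl _⟩⟩))))
    (four_odd rfl hF hm) hdeg hr (by omega)
    (val_odd hq2 hm hr Nat.card_pos.ne' (Cfsg.Agent.S0292.result (F := F) rfl hF m hm) hB) ?_
  rw [wd_even (hr.ord hq2) (even_two_mul _), hcard]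
  omega

/-! ### type `+` -/

theorem resolve_gcd {r k c : ℕ} (hr : r.Prime) (hr2 : r ≠ 2) (h : r ∣ Nat.gcd 4 k * c) : r ∣ c := by
  refine (hr.dvd_mul.1 h).resolve_left fun h2 => hr2 ?_
  have h3 : r ∣ 2 ^ 2 := h2.trans (Nat.gcd_dvd_left 4 k)
  exact (Nat.prime_dvd_prime_iff_eq hr Nat.prime_two).1 (hr.dvd_of_dvd_pow h3)

theorem four_plus {q m : ℕ} (hq : Fintype.card F = q) (hm : 4 ≤ m) :
    ∀ r : ℕ, r ∣ q ^ 2 + 1 → r.Prime → r ≠ 2 → r ∣ Nat.card (Cfsg.POmega F (quadFormPlus m F)) := by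
  intro r h hr hr2
  refine resolve_gcd (k := q ^ m - 1) hr hr2 ?_
  rw [Cfsg.Agent.S0293.result hq m hm]
  exact Dvd.dvd.mul_left (dvd_four (by omega) h) _

theorem good_plus (F : Type) [Field F] [Fintype F] (m : ℕ) (hm : 4 ≤ m) : Good (OrthForms.plusForm m F) :=
  good_of_finite (OrthForms.nondeg_plusForm m F) (by
    rw [Module.finrank_fintype_fun_eq_card, Fintype.card_sum, Fintype.card_fin]; omega)

theorem row2_oplus (F : Type) [Field F] [Fintype F] (m : ℕ) (hm : 4 ≤ m) : Row2 (POmega F (quadFormPlus m F)) := by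
  obtain ⟨p, hpc⟩ := CharP.exists F
  have hp : p.Prime := CharP.char_is_prime F p
  have hS := Cfsg.Agent.S0296.result (F := F) m hm
  have hcard : Fintype.card (Fin m ⊕ Fin m) = 2 * m := by
    rw [Fintype.card_sum, Fintype.card_fin]
    omega
  exact row2_gen (OrthForms.coe_plusForm m F) (good_plus F m hm) rfl (by rw [hcard]; omega) hp hS
    (Or.inr (Or.inr (Or.inr (Or.inr (Or.inl ⟨F, inferInstance, inferInstance, inferInstance, m, hm,
      ⟨MulEquiv.refl _⟩⟩)))))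
    (four_plus rfl hm)

/-- **the row `PΩ⁺_{2m}(q)`**, `(q, m) ≠ (2, 5)` -/
theorem rowT_oplus_gen (F : Type) [Field F] [Fintype F] (m : ℕ) (hm : 4 ≤ m)
    (h : ¬ (Fintype.card F = 2 ∧ m = 5)) : RowT (POmega F (quadFormPlus m F)) := by
  obtain ⟨p, hpc⟩ := CharP.exists F
  have hp : p.Prime := CharP.char_is_prime F p
  have hq2 : 2 ≤ Fintype.card F := Fintype.one_lt_card
  have hS := Cfsg.Agent.S0296.result (F := F) m hm
  haveI : Finite (POmega F (quadFormPlus m F)) := Quotient.finite _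
  obtain ⟨A, B, hA, -, hdeg, -⟩ := chars_plus (F := F) (m := m) rfl hm
  obtain ⟨r, hr⟩ := exists_prim (q := Fintype.card F) (n := 2 * (m - 2)) hq2 (by omega) (by
    rintro ⟨h5, h6⟩
    exact h ⟨h5, by omega⟩)
  have hcard : Fintype.card (Fin m ⊕ Fin m) = 2 * m := by
    rw [Fintype.card_sum, Fintype.card_fin]
    omega
  refine rowT_r (OrthForms.coe_plusForm m F) (good_plus F m hm) rfl (by rw [hcard]; omega) hp hS
    (Or.inr (Or.inr (Or.inr (Or.inr (Or.inl ⟨F, inferInstance, inferInstance, inferInstance, m, hm,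
      ⟨MulEquiv.refl _⟩⟩)))))
    (four_plus rfl hm) hdeg hr (by omega)
    (val_plus hq2 hm hr Nat.card_pos.ne' (Cfsg.Agent.S0293.result (F := F) rfl m hm) hA) ?_
  rw [wd_even (hr.ord hq2) (even_two_mul _), hcard]
  omega

/-! ### type `-` -/

section minus

variable (F : Type) [Field F] [Fintype F] (m : ℕ) (a b : F) (hm : 4 ≤ m)
  (hab : ∀ z₁ z₂ : F, z₁ ^ 2 + a * z₁ * z₂ + b * z₂ ^ 2 = 0 → z₁ = 0 ∧ z₂ = 0)

theorem card_idx (hm : 4 ≤ m) : Fintype.card ((Fin (m - 1) ⊕ Fin (m - 1)) ⊕ Fin 2) = 2 * m := by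
  rw [Fintype.card_sum, Fintype.card_sum, Fintype.card_fin, Fintype.card_fin]
  omega

include hm hab

theorem four_minus : ∀ r : ℕ, r ∣ Fintype.card F ^ 2 + 1 → r.Prime → r ≠ 2 →
    r ∣ Nat.card (Cfsg.POmega F (quadFormMinus (m - 1) F a b)) := by
  intro r h hr hr2
  refine resolve_gcd (k := Fintype.card F ^ m + 1) hr hr2 ?_
  rw [Cfsg.Agent.S0294.result rfl m hm a b hab]
  exact Dvd.dvd.mul_left (dvd_four (by omega) h) _

theorem good_minus : Good (OrthForms.minusForm (m - 1) F a b) :=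
  good_of_finite (OrthForms.nondeg_minusForm (m - 1) F a b hab) (by
    rw [Module.finrank_fintype_fun_eq_card, card_idx m hm]; omega)

theorem lie_minus (p : ℕ) [CharP F p] : IsLieTypeChar p (POmega F (quadFormMinus (m - 1) F a b)) :=
  Or.inr (Or.inr (Or.inr (Or.inr (Or.inr (Or.inl ⟨F, inferInstance, inferInstance, inferInstance, m,
        a, b, hm, hab, ⟨MulEquiv.refl _⟩⟩)))))

theorem row2_ominus : Row2 (POmega F (quadFormMinus (m - 1) F a b)) := by
  obtain ⟨p, hpc⟩ := CharP.exists F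
  have hp : p.Prime := CharP.char_is_prime F p
  have hS := Cfsg.Agent.S0297.result (F := F) m hm a b hab
  exact row2_gen (OrthForms.coe_minusForm (m - 1) F a b) (good_minus F m a b hm hab) rfl
    (by rw [card_idx m hm]; omega) hp hS (lie_minus F m a b hm hab p) (four_minus F m a b hm hab)

/-- **the row `PΩ⁻_{2m}(q)`**, `m` odd -/
theorem rowT_ominus_odd (hmo : Odd m) : RowT (POmega F (quadFormMinus (m - 1) F a b)) := by
  obtain ⟨p, hpc⟩ := CharP.exists F
  have hp : p.Prime := CharP.char_is_prime F p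
  have hq2 : 2 ≤ Fintype.card F := Fintype.one_lt_card
  have hS := Cfsg.Agent.S0297.result (F := F) m hm a b hab
  haveI : Finite (POmega F (quadFormMinus (m - 1) F a b)) := Quotient.finite _
  obtain ⟨A, B, hA, -, hdeg, -⟩ := chars_minus (F := F) (m := m) rfl hm a b hab
  have hm5 : 5 ≤ m := by
    obtain ⟨k, hk⟩ := hmo
    omega
  obtain ⟨r, hr⟩ := exists_prim (q := Fintype.card F) (n := m - 2) hq2 (by omega) (by
    rintro ⟨h5, h6⟩
    obtain ⟨k, hk⟩ := hmo
    omega)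
  refine rowT_r (OrthForms.coe_minusForm (m - 1) F a b) (good_minus F m a b hm hab) rfl
    (by rw [card_idx m hm]; omega) hp hS (lie_minus F m a b hm hab p) (four_minus F m a b hm hab) hdeg hr (by omega)
    (val_minus_odd hq2 hm hmo hr Nat.card_pos.ne' (Cfsg.Agent.S0294.result (F := F) rfl m hm a b hab) hA) ?_
  have hodd : Odd (m - 2) := by
    obtain ⟨k, hk⟩ := hmo
    exact ⟨k - 1, by omega⟩
  rw [wd_odd (hr.ord hq2) hodd, card_idx m hm]
  omega

theorem card_sing_minus {r : ℕ} (hr : Prim (Fintype.card F) (m - 1) r) :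
    Nat.card {v : (Fin (m - 1) ⊕ Fin (m - 1)) ⊕ Fin 2 → F // OrthForms.minusForm (m - 1) F a b v = 0} ≡ 1 [MOD r] := by
  have hq2 : 2 ≤ Fintype.card F := Fintype.one_lt_card
  rw [OrthForms.coe_minusForm, Cfsg.Agent.S0290.result rfl m (by omega) a b hab]
  obtain ⟨k, rfl⟩ : ∃ k, m = k + 1 := ⟨m - 1, by omega⟩
  rw [show k + 1 - 1 = k by omega] at hr ⊢
  rw [show 2 * (k + 1) - 1 = 2 * k + 1 by omega]
  set q := Fintype.card F with hq
  have h1 : q ^ k = q ^ k - 1 + 1 := by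
    have := Nat.one_le_pow k q (by omega)
    omega
  have hk : q ^ (k + 1) ≤ q ^ (2 * k + 1) := Nat.pow_le_pow_right (by omega) (by omega)
  rw [← ZMod.natCast_eq_natCast_iff, Nat.cast_sub (hk.trans (Nat.le_add_right _ _))]
  have h2 : ((q ^ k - 1 : ℕ) : ZMod r) = 0 := (ZMod.natCast_eq_zero_iff _ _).2 ((hr.iff _).2 dvd_rfl)
  have h3 : (q : ZMod r) ^ k = 1 := by
    rw [← Nat.cast_pow, h1, Nat.cast_add, h2, zero_add, Nat.cast_one]
  push_cast
  rw [pow_succ, pow_succ, pow_mul', h3]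
  ring

/-- **the row `PΩ⁻_{2m}(q)`**, `m` even, `(q, m) ≠ (2, 4)` -/
theorem rowT_ominus_even (hme : Even m) (h : ¬ (Fintype.card F = 2 ∧ m = 4)) :
    RowT (POmega F (quadFormMinus (m - 1) F a b)) := by
  obtain ⟨p, hpc⟩ := CharP.exists F
  have hp : p.Prime := CharP.char_is_prime F p
  have hq2 : 2 ≤ Fintype.card F := Fintype.one_lt_card
  have hS := Cfsg.Agent.S0297.result (F := F) m hm a b hab
  haveI : Finite (POmega F (quadFormMinus (m - 1) F a b)) := Quotient.finite _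
  obtain ⟨A, B, -, hB, -, hdeg⟩ := chars_minus (F := F) (m := m) rfl hm a b hab
  have hodd : Odd (m - 1) := by
    obtain ⟨k, hk⟩ := hme
    exact ⟨k - 1, by omega⟩
  obtain ⟨r2, hr2⟩ := exists_prim (q := Fintype.card F) (n := 2 * (m - 1)) hq2 (by omega) (by
    rintro ⟨h5, h6⟩
    exact h ⟨h5, by omega⟩)
  obtain ⟨r4, hr4⟩ := exists_prim (q := Fintype.card F) (n := m - 1) hq2 (by omega) (by
    rintro ⟨h5, h6⟩
    obtain ⟨k, hk⟩ := hme
    omega)
  have hv2 := val_minus_even hq2 hm hme (Or.inl rfl) hr2 Nat.card_pos.ne'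
    (Cfsg.Agent.S0294.result (F := F) rfl m hm a b hab) hB
  have hv4 := val_minus_even hq2 hm hme (Or.inr rfl) hr4 Nat.card_pos.ne'
    (Cfsg.Agent.S0294.result (F := F) rfl m hm a b hab) hB
  have hG := good_minus F m a b hm hab
  have h52 := hr2.five (by omega)
  have h54 := hr4.five (by omega)
  have hne : r2 ≠ r4 := by
    rintro rfl
    have h1 := (hr2.iff (m - 1)).1 ((hr4.iff _).2 dvd_rfl)
    have := Nat.le_of_dvd (by omega) h1
    omega
  have hcoe := OrthForms.coe_minusForm (m - 1) F a b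
  obtain ⟨y2, X2, hy2⟩ := exists_elt hG (by rw [card_idx m hm]; omega) hr2.prime (by omega)
    (cast_ne_zero_of_not_dvd rfl hr2.prime hr2.ndvd) ((by rw [hcoe]; exact hv2.1 :
      r2 ∣ Nat.card (Cfsg.POmega F ⇑(OrthForms.minusForm (m - 1) F a b))).trans card_pomega_dvd)
  obtain ⟨y4, X4, hy4⟩ := exists_elt hG (by rw [card_idx m hm]; omega) hr4.prime (by omega)
    (cast_ne_zero_of_not_dvd rfl hr4.prime hr4.ndvd) ((by rw [hcoe]; exact hv4.1 :
      r4 ∣ Nat.card (Cfsg.POmega F ⇑(OrthForms.minusForm (m - 1) F a b))).trans card_pomega_dvd)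
  have hX4 : Module.finrank F X4 = 2 := by
    have h1 := hy4.fin
    rw [wd_odd (hr4.ord hq2) hodd, card_idx m hm] at h1
    omega
  obtain ⟨n, hn1, hn0, hn⟩ := exists_rn hG (q := Fintype.card F) rfl hr4.prime (hr4.not_small (by omega) (by norm_num)
    (by norm_num)) hr4.ndvd (hr4.not_sub (by norm_num) (by omega)) hy4 hX4 (by rw [card_idx m hm]; omega)
    (card_sing_minus F m a b hm hab hr4)
  have o2 := (hy2.hasOrd_self hG hr2.prime (by omega)).of_equiv (pEquiv hG)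
  have o4 := (hy4.hasOrd_self hG hr4.prime (by omega)).of_equiv (pEquiv hG)
  have o5 := hn.of_equiv (pEquiv hG)
  rw [hcoe] at o2 o4 o5
  refine ⟨Or.inl ?_, row2_ominus F m a b hm hab⟩
  have key := two_main hG (q := Fintype.card F) rfl (by rw [card_idx m hm]; omega) hp (by rw [hcoe]; exact hS)
    (not_comm hG rfl (by rw [card_idx m hm]; omega) hp (by rw [hcoe]; exact hS))
    (by rw [hcoe]; exact lie_minus F m a b hm hab p) (by rw [hcoe]; exact four_minus F m a b hm hab)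
    (d := B) (by rw [hcoe]; exact hdeg) {r2, r4, r4 * n} ?_ (by
      rw [hcoe]
      intro k hk
      rw [Finset.mem_insert, Finset.mem_insert, Finset.mem_singleton] at hk
      rcases hk with rfl | rfl | rfl
      · exact ⟨o2, k, hr2.prime, hr2.ndvd, dvd_rfl, hv2.2⟩
      · exact ⟨o4, k, hr4.prime, hr4.ndvd, dvd_rfl, hv4.2⟩
      · exact ⟨o5, r4, hr4.prime, hr4.ndvd, dvd_mul_right _ _, hv4.2⟩)
  · rw [hcoe] at key
    exact key
  · rw [Finset.card_insert_of_notMem, Finset.card_insert_of_notMem, Finset.card_singleton]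
    · rw [Finset.mem_singleton]
      intro h1
      apply hn1
      exact Nat.eq_of_mul_eq_mul_left (by omega : 0 < r4) (by rw [mul_one]; exact h1.symm)
    · rw [Finset.mem_insert, Finset.mem_singleton, not_or]
      refine ⟨hne, fun h1 => ?_⟩
      have h3 : r4 ∣ r2 := ⟨n, h1⟩
      exact hne ((Nat.prime_dvd_prime_iff_eq hr4.prime hr2.prime).1 h3).symm

end minus

/-- **the row `PΩ⁻_{2m}(q)`**, `(q, m) ≠ (2, 4)` -/
theorem rowT_ominus_gen (F : Type) [Field F] [Fintype F] (m : ℕ) (a b : F) (hm : 4 ≤ m)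
    (hab : ∀ z₁ z₂ : F, z₁ ^ 2 + a * z₁ * z₂ + b * z₂ ^ 2 = 0 → z₁ = 0 ∧ z₂ = 0)
    (h : ¬ (Fintype.card F = 2 ∧ m = 4)) : RowT (POmega F (quadFormMinus (m - 1) F a b)) := by
  rcases Nat.even_or_odd m with he | ho
  · exact rowT_ominus_even F m a b hm hab he h
  · exact rowT_ominus_odd F m a b hm hab ho

end Cfsg.Agent.H397.Rk
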